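import Cfsg.Agent.Lib.Helper27.T14.WC

namespace Cfsg.Agent.Lib.Helper27.T14
open Subgroup

theorem BRG {G : Type*} [Group G] [Finite G] (S : Subgroup G) (W : Subgroup ↥S)
    (hidx : W.index ≤ 8)
    (hd : ∀ U : Subgroup ↥S, U ≤ W → U.relIndex W ≤ 16 → sq W ≤ U)
    (hcent : ∀ s : ↥S, (∀ z ∈ sq W, s * z = z * s) ↔ s ∈ W) :
    (W.map S.subtype).relIndex S ≤ 8 ∧
    (∀ U : Subgroup G, U ≤ W.map S.subtype → U.relIndex (W.map S.subtype) ≤ 16 →
      sq (W.map S.subtype) ≤ U) ∧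
    (∀ s ∈ S, (∀ z ∈ sq (W.map S.subtype), s * z = z * s) ↔ s ∈ W.map S.subtype) := by
  refine ⟨?_, ?_, ?_⟩
  · rw [Subgroup.relIndex, Subgroup.subgroupOf,
      Subgroup.comap_map_eq_self_of_injective S.subtype_injective]
    exact hidx
  · intro U hU hr
    rw [sq_map, Subgroup.map_le_iff_le_comap]
    refine hd (U.comap S.subtype) ?_ ?_
    · intro x hx
      obtain ⟨y, hy, hyx⟩ := hU (Subgroup.mem_comap.1 hx)
      rwa [← S.subtype_injective hyx]
    · rw [Subgroup.relIndex_comap]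
      exact hr
  · intro s hs
    rw [sq_map]
    constructor
    · intro h
      refine ⟨⟨s, hs⟩, (hcent ⟨s, hs⟩).1 ?_, rfl⟩
      intro z hz
      have := h (S.subtype z) (Subgroup.mem_map_of_mem _ hz)
      exact Subtype.ext this
    · rintro ⟨s', hs', rfl⟩ _ ⟨z, hz, rfl⟩
      have := (hcent s').2 hs' z hz
      rw [← map_mul, ← map_mul, this]

end Cfsg.Agent.Lib.Helper27.T14
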