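import Cfsg.Agent.Lib.Helper27.T14.M1
import Cfsg.Agent.Lib.Helper27.T14.Basic

namespace Cfsg.Agent.Lib.Helper27.T14
open Subgroup
open scoped commutatorElement

theorem chn_exists {G : Type*} [Group G] {H K : Subgroup G} (h : H.relIndex K ≠ 1) :
    ∃ x ∈ K, x ∉ H := by
  by_contra hcon
  push Not at hcon
  exact h (Subgroup.relIndex_eq_one.2 hcon)

theorem CHN {T : Type*} [Group T] [Finite T] {W Z2 Z3 Z4 : Subgroup T} (c : Ctx T W Z2 Z3 Z4) :
    ∃ (z s : T) (H1 H2 : Subgroup T), W ≤ H1 ∧ H1 ≤ H2 ∧ W.relIndex H1 = 2 ∧ H1.relIndex H2 = 2 ∧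
      H2.relIndex ⊤ = 2 ∧ z ∈ H1 ∧ z ∉ W ∧ s ∈ H2 ∧ s ∉ H1 ∧
      ∀ t ∈ H2, ∀ y ∈ Z2, t * y = y * t := by
  haveI := c.nW
  set H2 := Subgroup.centralizer (Z2 : Set T) with hH2
  have hH2c : ∀ t ∈ H2, ∀ y ∈ Z2, t * y = y * t := by
    intro t ht y hy
    rw [hH2, Subgroup.mem_centralizer_iff] at ht
    exact (ht y hy).symm
  have hW2 : W ≤ H2 := by
    intro w hw
    rw [hH2, Subgroup.mem_centralizer_iff]
    exact fun y hy => (c.cen3 w hw y (c.le23 hy)).symm
  have r2 : W.relIndex H2 = 4 := by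
    have := Subgroup.relIndex_mul_index hW2
    rw [c.idx2, c.idx] at this
    omega
  obtain ⟨z, hz2, hzW⟩ := chn_exists (H := W) (K := H2) (by omega)
  set π := QuotientGroup.mk' W with hπ
  have hzz : z * z ∈ W := (M1 c z z (hH2c z hz2) (hH2c z hz2)).1
  have ho : orderOf (π z) = 2 := by
    refine orderOf_eq_prime ?_ ?_
    · rw [pow_two, ← map_mul]
      exact (QuotientGroup.eq_one_iff _).2 hzz
    · intro h
      exact hzW ((QuotientGroup.eq_one_iff _).1 h)
  set H1 := (Subgroup.zpowers (π z)).comap π with hH1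
  have hW1 : W ≤ H1 := by
    intro w hw
    rw [hH1, Subgroup.mem_comap, (show π w = 1 from (QuotientGroup.eq_one_iff _).2 hw)]
    exact Subgroup.one_mem _
  have hz1 : z ∈ H1 := by
    rw [hH1, Subgroup.mem_comap]; exact Subgroup.mem_zpowers _
  have r1 : W.relIndex H1 = 2 := by
    have : W.relIndex H1 = Nat.card (H1.map π) := by
      rw [← Subgroup.relIndex_ker, hπ, QuotientGroup.ker_mk']
    rw [this, hH1, Subgroup.map_comap_eq_self_of_surjective (QuotientGroup.mk'_surjective W),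
      Nat.card_zpowers, ho]
  have h12 : H1 ≤ H2 := by
    have e : (H2.map π).comap π = H2 := by
      rw [Subgroup.comap_map_eq_self]
      rw [hπ, QuotientGroup.ker_mk']; exact hW2
    rw [← e, hH1]
    apply Subgroup.comap_mono
    rw [Subgroup.zpowers_le]
    exact Subgroup.mem_map_of_mem _ hz2
  have r12 : H1.relIndex H2 = 2 := by
    have := Subgroup.relIndex_mul_relIndex W H1 H2 hW1 h12
    rw [r1, r2] at this
    omega
  obtain ⟨s, hs2, hs1⟩ := chn_exists (H := H1) (K := H2) (by omega)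
  exact ⟨z, s, H1, H2, hW1, h12, r1, r12, by rw [Subgroup.relIndex_top_right]; exact c.idx2,
    hz1, hzW, hs2, hs1, hH2c⟩

end Cfsg.Agent.Lib.Helper27.T14
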