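import Cfsg.Agent.Lib.Helper27.T14.HALF

namespace Cfsg.Agent.Lib.Helper27.T14
open Subgroup
open scoped commutatorElement

theorem fixS_anti {G : Type*} [Group G] (N M : Subgroup G) [N.Normal] {H₁ H₂ : Subgroup G}
    (h12 : H₁ ≤ H₂) : fixS N M H₂ ≤ fixS N M H₁ := by
  intro x hx
  rw [mem_fixS] at hx ⊢
  exact ⟨hx.1, fun h hh => hx.2 h (h12 hh)⟩

theorem le_fixS {G : Type*} [Group G] (N M H : Subgroup G) [N.Normal] (hNM : N ≤ M) :
    N ≤ fixS N M H := by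
  intro n hn
  rw [mem_fixS']
  refine ⟨hNM hn, fun h _ => ?_⟩
  rw [(QuotientGroup.eq_one_iff n).2 hn]; simp

theorem FIXSTEP {G : Type*} [Group G] [Finite G] (N M : Subgroup G) [N.Normal] [M.Normal]
    (hNM : N ≤ M) (hsq : ∀ x ∈ M, x ^ 2 ∈ N) (H₁ H₂ : Subgroup G) (h12 : H₁ ≤ H₂)
    (hidx : H₁.relIndex H₂ = 2) :
    N.relIndex (fixS N M H₁) ≤ (N.relIndex (fixS N M H₂)) ^ 2 := by
  have hex : ∃ b ∈ H₂, b ∉ H₁ := by
    by_contra hcon
    push Not at hcon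
    have : H₁.relIndex H₂ = 1 := Subgroup.relIndex_eq_one.2 hcon
    omega
  obtain ⟨b, hb, hb'⟩ := hex
  obtain ⟨I, hNI, hIB, -, hc⟩ := HALF N M hNM hsq H₁ H₂ h12 hidx b hb hb'
  have e1 := card_mul_relIndex' (le_fixS N M H₁ hNM)
  have e2 := card_mul_relIndex' (le_fixS N M H₂ hNM)
  have e3 := Subgroup.card_le_of_le hIB
  have hpos : 0 < Nat.card N := Nat.card_pos
  rw [← e1, ← e2] at hc
  rw [← e2] at e3
  have : Nat.card N * N.relIndex (fixS N M H₁) * Nat.card N ≤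
      Nat.card N * N.relIndex (fixS N M H₂) * (Nat.card N * N.relIndex (fixS N M H₂)) := by
    rw [hc]; exact Nat.mul_le_mul_left _ e3
  have h2 : (Nat.card N * Nat.card N) * N.relIndex (fixS N M H₁) ≤
      (Nat.card N * Nat.card N) * (N.relIndex (fixS N M H₂)) ^ 2 := by
    calc _ = Nat.card N * N.relIndex (fixS N M H₁) * Nat.card N := by ring
      _ ≤ _ := this
      _ = _ := by ring
  exact Nat.le_of_mul_le_mul_left h2 (by positivity)

end Cfsg.Agent.Lib.Helper27.T14
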