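import Cfsg.Agent.Lib.Helper27.T14.Defs

namespace Cfsg.Agent.Lib.Helper27.T14
open Subgroup

theorem hpl_comm {G : Type*} [Group G] (E N : Subgroup G)
    (hsq : ∀ x ∈ E, x ^ 2 ∈ N) (a b : G) (ha : a ∈ E) (hb : b ∈ E) :
    a * b * a⁻¹ * b⁻¹ ∈ N := by
  have h1 := hsq (a * b) (E.mul_mem ha hb)
  have h2 := hsq (b⁻¹ * a⁻¹ * b) (E.mul_mem (E.mul_mem (E.inv_mem hb) (E.inv_mem ha)) hb)
  have h3 := hsq b⁻¹ (E.inv_mem hb)
  have : a * b * a⁻¹ * b⁻¹ = (a * b) ^ 2 * (b⁻¹ * a⁻¹ * b) ^ 2 * (b⁻¹) ^ 2 := by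
    simp only [pow_two]; group
  rw [this]
  exact N.mul_mem (N.mul_mem h1 h2) h3

theorem HPL {G : Type*} [Group G] [Finite G] (E N : Subgroup G) (hN : N ≤ E)
    (hsq : ∀ x ∈ E, x ^ 2 ∈ N) (y : G) (hy : y ∈ E) (hyN : y ∉ N) :
    ∃ U : Subgroup G, N ≤ U ∧ U ≤ E ∧ y ∉ U ∧ U.relIndex E = 2 := by
  classical
  have hfin : (Set.univ : Set (Subgroup G)).Finite := Set.toFinite _
  obtain ⟨U, hU⟩ := (Set.toFinite {U : Subgroup G | N ≤ U ∧ U ≤ E ∧ y ∉ U}).exists_maximal
    ⟨N, le_refl _, hN, hyN⟩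
  obtain ⟨⟨hNU, hUE, hyU⟩, hmax⟩ := hU
  have c1 : ∀ a ∈ E, ∀ u ∈ U, a * u * a⁻¹ ∈ U := by
    intro a ha u hu
    have := hNU (hpl_comm E N hsq a u ha (hUE hu))
    have h2 : a * u * a⁻¹ = (a * u * a⁻¹ * u⁻¹) * u := by group
    rw [h2]
    exact U.mul_mem this hu
  have key : ∀ x ∈ E, x ∉ U → y * x ∈ U := by
    intro x hx hxU
    have hx2 : x ^ 2 ∈ U := hNU (hsq x hx)
    have hxi2 : x⁻¹ ^ 2 ∈ U := hNU (hsq x⁻¹ (E.inv_mem hx))
    let U' : Subgroup G :=
      { carrier := {g | g ∈ U ∨ g * x ∈ U}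
        one_mem' := Or.inl U.one_mem
        mul_mem' := by
          rintro g h (hg | hg) (hh | hh)
          · exact Or.inl (U.mul_mem hg hh)
          · right
            rw [mul_assoc]
            exact U.mul_mem hg hh
          · right
            have := c1 x⁻¹ (E.inv_mem hx) h hh
            have e : g * h * x = (g * x) * (x⁻¹ * h * x⁻¹⁻¹) := by group
            rw [e]
            exact U.mul_mem hg this
          · left
            have := c1 x⁻¹ (E.inv_mem hx) _ hh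
            have e : g * h = (g * x) * (x⁻¹ * (h * x) * x⁻¹⁻¹) * x⁻¹ ^ 2 := by group
            rw [e]
            exact U.mul_mem (U.mul_mem hg this) hxi2
        inv_mem' := by
          rintro g (hg | hg)
          · exact Or.inl (U.inv_mem hg)
          · right
            have := c1 x hx _ (U.inv_mem hg)
            have e : g⁻¹ * x = (x * (g * x)⁻¹ * x⁻¹) * x ^ 2 := by group
            rw [e]
            exact U.mul_mem this hx2 }
    have hUU' : U ≤ U' := fun g hg => Or.inl hg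
    have hxU' : x⁻¹ ∈ U' := Or.inr (by simp)
    have hU'E : U' ≤ E := by
      rintro g (hg | hg)
      · exact hUE hg
      · have := E.mul_mem (hUE hg) (E.inv_mem hx)
        simpa using this
    by_contra hyx
    have hyU' : y ∉ U' := by
      rintro (h | h)
      · exact hyU h
      · exact hyx h
    have := hmax (show U' ∈ {U : Subgroup G | N ≤ U ∧ U ≤ E ∧ y ∉ U} from
      ⟨hNU.trans hUU', hU'E, hyU'⟩) hUU'
    exact hxU (by simpa using U.inv_mem (this hxU'))
  refine ⟨U, hNU, hUE, hyU, ?_⟩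
  rw [Subgroup.relIndex_eq_two_iff]
  refine ⟨y, hy, fun b hb => ?_⟩
  by_cases hbU : b ∈ U
  · refine Or.inr ⟨hbU, fun h => hyU ?_⟩
    have := U.mul_mem (U.inv_mem hbU) h
    simpa using this
  · refine Or.inl ⟨?_, hbU⟩
    have h1 := key b hb hbU
    have := c1 b hb _ h1
    have e : b * (y * b) * b⁻¹ = b * y := by group
    rwa [e] at this

end Cfsg.Agent.Lib.Helper27.T14
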