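import Cfsg.Agent.Lib.Helper27.T14.Defs2
import Cfsg.Agent.Lib.Helper27.T14.Basic
import Cfsg.Agent.Lib.Helper27.T14.HPL

namespace Cfsg.Agent.Lib.Helper27.T14
open Subgroup
open scoped commutatorElement

theorem half_two_iff {G : Type*} [Group G] {H₁ H₂ : Subgroup G} (hidx : H₁.relIndex H₂ = 2)
    {x y : G} (hx : x ∈ H₂) (hy : y ∈ H₂) : x * y ∈ H₁ ↔ (x ∈ H₁ ↔ y ∈ H₁) := by
  have := Subgroup.mul_mem_iff_of_index_two (H := H₁.subgroupOf H₂) hidx
    (a := ⟨x, hx⟩) (b := ⟨y, hy⟩)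
  simpa [Subgroup.mem_subgroupOf] using this

theorem half_comm_iff {G : Type*} [Group G] (N : Subgroup G) [N.Normal] (x h : G) :
    ⁅x, h⁆ ∈ N ↔ (x : G ⧸ N) * (h : G ⧸ N) = (h : G ⧸ N) * (x : G ⧸ N) := by
  rw [← QuotientGroup.eq_one_iff, commutatorElement_def]
  simp only [QuotientGroup.mk_mul, QuotientGroup.mk_inv]
  constructor
  · intro this
    calc (x : G ⧸ N) * (h : G ⧸ N)
        = ((x : G ⧸ N) * h * (x : G ⧸ N)⁻¹ * (h : G ⧸ N)⁻¹) * (h * x) := by group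
      _ = h * x := by rw [this, one_mul]
  · intro this
    rw [this]; group

theorem mem_fixS' {G : Type*} [Group G] {N M H : Subgroup G} [N.Normal] {x : G} :
    x ∈ fixS N M H ↔ x ∈ M ∧ ∀ h ∈ H, (x : G ⧸ N) * (h : G ⧸ N) = (h : G ⧸ N) * (x : G ⧸ N) := by
  rw [mem_fixS]
  exact and_congr_right fun _ => forall₂_congr fun h _ => half_comm_iff N x h

theorem half_A {Q : Type*} [Group Q] (a b : Q) (c1 : a * (b * a * b⁻¹) = (b * a * b⁻¹) * a)
    (c2 : a * (b * b) = (b * b) * a) : dl b a * b = b * dl b a := by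
  unfold dl
  calc a * (b * a * b⁻¹) * b = (a * (b * a * b⁻¹)) * b := by group
    _ = ((b * a * b⁻¹) * a) * b := by rw [c1]
    _ = (b * a * b⁻¹) * (a * (b * b)) * b⁻¹ := by group
    _ = (b * a * b⁻¹) * ((b * b) * a) * b⁻¹ := by rw [c2]
    _ = b * (a * (b * a * b⁻¹)) := by group

theorem half_B {Q : Type*} [Group Q] (a b h : Q) (c1 : a * h = h * a)
    (c2 : a * (b⁻¹ * h * b) = (b⁻¹ * h * b) * a) : dl b a * h = h * dl b a := by
  unfold dl
  calc a * (b * a * b⁻¹) * h = a * b * (a * (b⁻¹ * h * b)) * b⁻¹ := by group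
    _ = a * b * ((b⁻¹ * h * b) * a) * b⁻¹ := by rw [c2]
    _ = (a * h) * (b * a * b⁻¹) := by group
    _ = (h * a) * (b * a * b⁻¹) := by rw [c1]
    _ = h * (a * (b * a * b⁻¹)) := by group

theorem half_mul {Q : Type*} [Group Q] (a a' b : Q)
    (c1 : a' * (b * a * b⁻¹) = (b * a * b⁻¹) * a') : dl b (a * a') = dl b a * dl b a' := by
  unfold dl
  calc a * a' * (b * (a * a') * b⁻¹) = a * (a' * (b * a * b⁻¹)) * (b * a' * b⁻¹) := by group
    _ = a * ((b * a * b⁻¹) * a') * (b * a' * b⁻¹) := by rw [c1]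
    _ = _ := by group

theorem mk_dl {G : Type*} [Group G] (N : Subgroup G) [N.Normal] (b a : G) :
    ((dl b a : G) : G ⧸ N) = dl (b : G ⧸ N) (a : G ⧸ N) := by
  simp [dl]

theorem HALF {G : Type*} [Group G] [Finite G] (N M : Subgroup G) [N.Normal] [M.Normal]
    (hNM : N ≤ M) (hsq : ∀ x ∈ M, x ^ 2 ∈ N) (H₁ H₂ : Subgroup G) (h12 : H₁ ≤ H₂)
    (hidx : H₁.relIndex H₂ = 2) (b : G) (hb : b ∈ H₂) (hb' : b ∉ H₁) :
    ∃ I : Subgroup G, N ≤ I ∧ I ≤ fixS N M H₂ ∧
      (∀ y, y ∈ I ↔ ∃ a ∈ fixS N M H₁, (dl b a)⁻¹ * y ∈ N) ∧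
      Nat.card (fixS N M H₁) * Nat.card N = Nat.card (fixS N M H₂) * Nat.card I := by
  classical
  have comm : ∀ x ∈ M, ∀ y ∈ M, (x : G ⧸ N) * (y : G ⧸ N) = (y : G ⧸ N) * (x : G ⧸ N) := by
    intro x hx y hy
    rw [← half_comm_iff, commutatorElement_def]
    exact hpl_comm M N hsq x y hx hy
  have sq1 : ∀ x ∈ M, (x : G ⧸ N) * (x : G ⧸ N) = 1 := by
    intro x hx
    rw [← QuotientGroup.mk_mul, QuotientGroup.eq_one_iff, ← pow_two]
    exact hsq x hx
  have conjM : ∀ x ∈ M, b * x * b⁻¹ ∈ M := fun x hx =>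
    (inferInstance : M.Normal).conj_mem x hx b
  set A := fixS N M H₁ with hA
  set B := fixS N M H₂ with hB
  have hBA : B ≤ A := by
    intro x hx
    rw [hB, mem_fixS] at hx
    rw [hA, mem_fixS]
    exact ⟨hx.1, fun h hh => hx.2 h (h12 hh)⟩
  have hAM : A ≤ M := fun x hx => (mem_fixS.1 hx).1
  have cconj : ∀ x ∈ M, ∀ y ∈ M, (x : G ⧸ N) * ((b : G ⧸ N) * (y : G ⧸ N) * (b : G ⧸ N)⁻¹) =
      ((b : G ⧸ N) * (y : G ⧸ N) * (b : G ⧸ N)⁻¹) * (x : G ⧸ N) := by
    intro x hx y hy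
    have := comm x hx (b * y * b⁻¹) (conjM y hy)
    simpa only [QuotientGroup.mk_mul, QuotientGroup.mk_inv] using this
  let φ : ↥A →* G ⧸ N := MonoidHom.mk' (fun a => ((dl b (a : G) : G) : G ⧸ N)) (by
    intro a a'
    simp only [mk_dl, Subgroup.coe_mul, QuotientGroup.mk_mul]
    exact half_mul _ _ _ (cconj _ (hAM a'.2) _ (hAM a.2)))
  have φa : ∀ a : ↥A, φ a = ((dl b (a : G) : G) : G ⧸ N) := fun _ => rfl
  have bb : b * b ∈ H₁ := (half_two_iff hidx hb hb).2 Iff.rfl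
  have bi : b⁻¹ ∈ H₂ := H₂.inv_mem hb
  have bi' : b⁻¹ ∉ H₁ := fun h => hb' (by simpa using H₁.inv_mem h)
  -- commuting with `H₁` and `b` gives commuting with `H₂`
  have ext2 : ∀ x : G ⧸ N, (∀ h ∈ H₁, x * (h : G ⧸ N) = (h : G ⧸ N) * x) →
      x * (b : G ⧸ N) = (b : G ⧸ N) * x → ∀ h ∈ H₂, x * (h : G ⧸ N) = (h : G ⧸ N) * x := by
    intro x h1 hxb h hh
    by_cases hh1 : h ∈ H₁
    · exact h1 h hh1
    · have h2 : h * b ∈ H₁ := (half_two_iff hidx hh hb).2 (by simp [hh1, hb'])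
      have h3 := h1 _ h2
      rw [QuotientGroup.mk_mul] at h3
      calc x * (h : G ⧸ N) = (x * ((h : G ⧸ N) * (b : G ⧸ N))) * (b : G ⧸ N)⁻¹ := by group
        _ = ((h : G ⧸ N) * (b : G ⧸ N) * x) * (b : G ⧸ N)⁻¹ := by rw [h3]
        _ = (h : G ⧸ N) * ((b : G ⧸ N) * x) * (b : G ⧸ N)⁻¹ := by group
        _ = (h : G ⧸ N) * (x * (b : G ⧸ N)) * (b : G ⧸ N)⁻¹ := by rw [hxb]
        _ = (h : G ⧸ N) * x := by group
  -- dl b a lies in B
  have dlB : ∀ a ∈ A, dl b a ∈ B := by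
    intro a ha
    have haM := hAM ha
    have ha2 := (mem_fixS'.1 ha).2
    rw [hB, mem_fixS']
    refine ⟨M.mul_mem haM (conjM a haM), ?_⟩
    rw [mk_dl]
    refine ext2 _ ?_ ?_
    · intro h hh
      have h' : b⁻¹ * h * b ∈ H₁ := by
        have e1 : b⁻¹ * h ∉ H₁ := by
          rw [half_two_iff hidx bi (h12 hh)]; simp [bi', hh]
        exact (half_two_iff hidx (H₂.mul_mem bi (h12 hh)) hb).2 (by simp [e1, hb'])
      have := ha2 _ h'
      simp only [QuotientGroup.mk_mul, QuotientGroup.mk_inv] at this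
      exact half_B _ _ _ (ha2 h hh) this
    · have := ha2 _ bb
      rw [QuotientGroup.mk_mul] at this
      exact half_A _ _ (cconj a haM a haM) this
  have hNB : N ≤ B := by
    intro n hn
    rw [hB, mem_fixS']
    refine ⟨hNM hn, fun h _ => ?_⟩
    rw [(QuotientGroup.eq_one_iff n).2 hn]; simp
  set I : Subgroup G := (φ.range).comap (QuotientGroup.mk' N) with hI
  have memI : ∀ y, y ∈ I ↔ ∃ a ∈ A, (dl b a)⁻¹ * y ∈ N := by
    intro y
    rw [hI, Subgroup.mem_comap, MonoidHom.mem_range]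
    constructor
    · rintro ⟨a, ha⟩
      refine ⟨a, a.2, ?_⟩
      rw [φa] at ha
      exact QuotientGroup.eq.1 ha
    · rintro ⟨a, ha, h⟩
      exact ⟨⟨a, ha⟩, QuotientGroup.eq.2 h⟩
  have hNI : N ≤ I := by
    intro n hn
    rw [memI]
    exact ⟨1, A.one_mem, by simpa [dl] using hn⟩
  refine ⟨I, hNI, ?_, memI, ?_⟩
  · intro y hy
    obtain ⟨a, ha, h⟩ := (memI y).1 hy
    have := B.mul_mem (dlB a ha) (hNB h)
    simpa using this
  · -- counting
    have k1 : Nat.card φ.ker * Nat.card φ.range = Nat.card A := by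
      rw [← Subgroup.index_ker, Subgroup.card_mul_index]
    have k2 : φ.ker = B.subgroupOf A := by
      ext a
      rw [MonoidHom.mem_ker, φa, Subgroup.mem_subgroupOf, mk_dl]
      have haM := hAM a.2
      have ha2 := (mem_fixS'.1 a.2).2
      constructor
      · intro h
        rw [hB, mem_fixS']
        refine ⟨haM, ext2 _ ha2 ?_⟩
        unfold dl at h
        have s := sq1 _ haM
        have e1 := eq_inv_of_mul_eq_one_right h
        have e2 := inv_eq_of_mul_eq_one_right s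
        rw [e2, mul_inv_eq_iff_eq_mul] at e1
        exact e1.symm
      · intro h
        have hc := (mem_fixS'.1 h).2 b hb
        unfold dl
        rw [← hc]
        have s := sq1 _ haM
        calc ((a : G) : G ⧸ N) * (((a : G) : G ⧸ N) * (b : G ⧸ N) * (b : G ⧸ N)⁻¹)
            = ((a : G) : G ⧸ N) * ((a : G) : G ⧸ N) := by group
          _ = 1 := s
    have k3 : Nat.card φ.ker = Nat.card B := by
      rw [k2]
      exact Nat.card_congr (Subgroup.subgroupOfEquivOfLe hBA).toEquiv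
    have k4 : Nat.card N * Nat.card φ.range = Nat.card I := by
      rw [← card_mul_relIndex' hNI]
      congr 1
      have : N.relIndex I = Nat.card (I.map (QuotientGroup.mk' N)) := by
        rw [← Subgroup.relIndex_ker, QuotientGroup.ker_mk']
      rw [this, hI, Subgroup.map_comap_eq_self_of_surjective (QuotientGroup.mk'_surjective N)]
    rw [← k1, k3, ← k4]
    ring

end Cfsg.Agent.Lib.Helper27.T14
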