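import Cfsg.Agent.Lib.Helper27.T14.UCS

namespace Cfsg.Agent.Lib.Helper27.T14
open Subgroup
open scoped commutatorElement

theorem idx_le {T α : Type*} [Group T] [Finite α] (H : Subgroup T) (f : T → α)
    (hf : ∀ t t', f t = f t' → t⁻¹ * t' ∈ H) : H.index ≤ Nat.card α := by
  rw [Subgroup.index]
  refine Nat.card_le_card_of_injective (fun a : T ⧸ H => f a.out) ?_
  intro a b hab
  have := hf _ _ hab
  rw [← QuotientGroup.eq] at this
  simpa using this

theorem idx_exists {T : Type*} [Group T] [Finite T] {H K : Subgroup T} (_ : H ≤ K)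
    (hc : Nat.card H < Nat.card K) : ∃ x ∈ K, x ∉ H := by
  by_contra hcon
  push Not at hcon
  exact absurd (Subgroup.card_le_of_le (show K ≤ H from hcon)) (by omega)

/-- an element commuting with `x2`, `x3` centralizes `Z3`. -/
theorem idx_cent {T : Type*} [Group T] [Finite T]
    (h1 : Nat.card ↥(Subgroup.upperCentralSeries T 1) = 2)
    (h2 : Nat.card ↥(Subgroup.upperCentralSeries T 2) = 4)
    (h3 : Nat.card ↥(Subgroup.upperCentralSeries T 3) = 8)
    (x2 x3 : T) (hx2 : x2 ∈ Subgroup.upperCentralSeries T 2)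
    (hx2' : x2 ∉ Subgroup.upperCentralSeries T 1)
    (hx3 : x3 ∈ Subgroup.upperCentralSeries T 3)
    (hx3' : x3 ∉ Subgroup.upperCentralSeries T 2)
    (t : T) (ht2 : t * x2 = x2 * t) (ht3 : t * x3 = x3 * t) :
    t ∈ Subgroup.centralizer ((Subgroup.upperCentralSeries T 3 : Subgroup T) : Set T) := by
  set S : Subgroup T := Subgroup.upperCentralSeries T 3 ⊓ Subgroup.centralizer {t} with hS
  have m12 : Subgroup.upperCentralSeries T 1 ≤ Subgroup.upperCentralSeries T 2 :=
    Subgroup.upperCentralSeries_mono T (by norm_num)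
  have m23 : Subgroup.upperCentralSeries T 2 ≤ Subgroup.upperCentralSeries T 3 :=
    Subgroup.upperCentralSeries_mono T (by norm_num)
  have hmem : ∀ y, y ∈ S ↔ y ∈ Subgroup.upperCentralSeries T 3 ∧ t * y = y * t := by
    intro y
    rw [hS, Subgroup.mem_inf, Subgroup.mem_centralizer_singleton_iff]
    constructor
    · rintro ⟨a, b⟩; exact ⟨a, b.symm⟩
    · rintro ⟨a, b⟩; exact ⟨a, b.symm⟩
  have z1S : Subgroup.upperCentralSeries T 1 ≤ S := by
    intro y hy
    rw [hmem]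
    refine ⟨m23 (m12 hy), ?_⟩
    rw [Subgroup.upperCentralSeries_one, Subgroup.mem_center_iff] at hy
    exact hy t
  have z2S : Subgroup.upperCentralSeries T 2 ≤ S := by
    have hlt : Subgroup.upperCentralSeries T 1 < S ⊓ Subgroup.upperCentralSeries T 2 := by
      refine lt_of_le_of_ne (le_inf z1S m12) fun he => hx2' ?_
      rw [he]
      exact ⟨(hmem x2).2 ⟨m23 hx2, ht2⟩, hx2⟩
    have hc := ucs_two_mul hlt
    have : S ⊓ Subgroup.upperCentralSeries T 2 = Subgroup.upperCentralSeries T 2 :=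
      Subgroup.eq_of_le_of_card_ge inf_le_right (by omega)
    rw [← this]; exact inf_le_left
  have z3S : S = Subgroup.upperCentralSeries T 3 := by
    have hlt : Subgroup.upperCentralSeries T 2 < S := by
      refine lt_of_le_of_ne z2S fun he => hx3' ?_
      rw [he]
      exact (hmem x3).2 ⟨hx3, ht3⟩
    have hc := ucs_two_mul hlt
    exact Subgroup.eq_of_le_of_card_ge inf_le_left (by omega)
  rw [Subgroup.mem_centralizer_iff]
  intro y hy
  have : y ∈ S := by rw [z3S]; exact hy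
  exact ((hmem y).1 this).2.symm

theorem IDX {T : Type*} [Group T] [Finite T]
    (h1 : Nat.card ↥(Subgroup.upperCentralSeries T 1) = 2)
    (h2 : Nat.card ↥(Subgroup.upperCentralSeries T 2) = 4)
    (h3 : Nat.card ↥(Subgroup.upperCentralSeries T 3) = 8) :
    (Subgroup.centralizer ((Subgroup.upperCentralSeries T 3 : Subgroup T) : Set T)).index ≤ 8 := by
  obtain ⟨x2, hx2, hx2'⟩ := idx_exists (Subgroup.upperCentralSeries_mono T (show 1 ≤ 2 by norm_num))
    (by omega)
  obtain ⟨x3, hx3, hx3'⟩ := idx_exists (Subgroup.upperCentralSeries_mono T (show 2 ≤ 3 by norm_num))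
    (by omega)
  have e : Nat.card (↥(Subgroup.upperCentralSeries T 1) × ↥(Subgroup.upperCentralSeries T 2)) = 8 := by
    rw [Nat.card_prod, h1, h2]
  rw [← e]
  refine idx_le _ (fun t => (⟨⁅x2, t⁆, (Subgroup.mem_upperCentralSeries_succ_iff.1 hx2) t⟩,
    ⟨⁅x3, t⁆, (Subgroup.mem_upperCentralSeries_succ_iff.1 hx3) t⟩)) ?_
  intro t t' htt
  simp only [Prod.mk.injEq, Subtype.mk.injEq, commutatorElement_def] at htt
  obtain ⟨e2, e3⟩ := htt
  have key : ∀ x : T, x * t * x⁻¹ * t⁻¹ = x * t' * x⁻¹ * t'⁻¹ → (t⁻¹ * t') * x = x * (t⁻¹ * t') := by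
    intro x hx
    have h4 : t * x⁻¹ * t⁻¹ = t' * x⁻¹ * t'⁻¹ := by
      have := congrArg (fun g => x⁻¹ * g) hx
      simpa [mul_assoc] using this
    have h5 : x⁻¹ * (t⁻¹ * t') = (t⁻¹ * t') * x⁻¹ := by
      calc x⁻¹ * (t⁻¹ * t') = t⁻¹ * (t * x⁻¹ * t⁻¹) * t' := by group
        _ = t⁻¹ * (t' * x⁻¹ * t'⁻¹) * t' := by rw [h4]
        _ = (t⁻¹ * t') * x⁻¹ := by group
    calc (t⁻¹ * t') * x = x * (x⁻¹ * (t⁻¹ * t')) * x := by group
      _ = x * ((t⁻¹ * t') * x⁻¹) * x := by rw [h5]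
      _ = x * (t⁻¹ * t') := by group
  exact idx_cent h1 h2 h3 x2 x3 hx2 hx2' hx3 hx3' _ (key x2 e2) (key x3 e3)

end Cfsg.Agent.Lib.Helper27.T14
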