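import Cfsg.Agent.Lib.Helper27.T14.Basic
import Cfsg.Agent.Lib.Helper3.PGroup

namespace Cfsg.Agent.Lib.Helper27.T14
open Subgroup

theorem nor_aux (k : ℕ) : ∀ {T : Type _} [Group T] [Finite T] (_ : IsPGroup 2 T) (N : Subgroup T)
    [N.Normal] (_ : Nat.card N ≤ 2 ^ k), N ≤ Subgroup.upperCentralSeries T k := by
  induction k with
  | zero =>
    intro T _ _ hT N _ hN
    have : Nat.card N = 1 := le_antisymm (by simpa using hN) Nat.card_pos
    rw [Subgroup.card_eq_one.1 this]
    exact bot_le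
  | succ k ih =>
    intro T _ _ hT N _ hN
    haveI : Fact (Nat.Prime 2) := ⟨Nat.prime_two⟩
    by_cases hb : N = ⊥
    · rw [hb]; exact bot_le
    have hne := Cfsg.Agent.Lib.Helper3.normal_inf_center_ne_bot' hT N hb
    set Z := Subgroup.center T with hZ
    have hq : IsPGroup 2 (T ⧸ Z) := hT.to_quotient Z
    haveI : (N.map (QuotientGroup.mk' Z)).Normal :=
      Subgroup.Normal.map inferInstance _ (QuotientGroup.mk'_surjective Z)
    have h1 : Nat.card (N.map (QuotientGroup.mk' Z)) = Z.relIndex N := by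
      rw [← Subgroup.relIndex_ker, QuotientGroup.ker_mk']
    have h2 : Nat.card ↥(Z ⊓ N) * (Z ⊓ N).relIndex N = Nat.card N :=
      card_mul_relIndex' inf_le_right
    rw [Subgroup.inf_relIndex_right, ← h1] at h2
    have h3 : 2 ≤ Nat.card ↥(Z ⊓ N) := by
      by_contra hlt
      have : Nat.card ↥(Z ⊓ N) = 1 := le_antisymm (by omega) Nat.card_pos
      exact hne (by rw [inf_comm]; exact Subgroup.card_eq_one.1 this)
    have h4 : Nat.card (N.map (QuotientGroup.mk' Z)) ≤ 2 ^ k := by
      rw [pow_succ] at hN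
      nlinarith
    have h5 := ih hq (N.map (QuotientGroup.mk' Z)) h4
    rw [← Subgroup.comap_upperCentralSeries_quotient_center]
    exact Subgroup.map_le_iff_le_comap.1 h5

theorem NOR {T : Type*} [Group T] [Finite T] (hT : IsPGroup 2 T) (N : Subgroup T) [N.Normal]
    (k : ℕ) (hN : Nat.card N ≤ 2 ^ k) : N ≤ Subgroup.upperCentralSeries T k :=
  nor_aux k hT N hN

end Cfsg.Agent.Lib.Helper27.T14
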