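import Cfsg.Agent.Lib.Helper27.T14.FIX
import Cfsg.Agent.Lib.Helper27.T14.NOR
import Cfsg.Agent.Lib.Helper27.T14.IDX

namespace Cfsg.Agent.Lib.Helper27.T14
open Subgroup
open scoped commutatorElement

theorem sq_normal {G : Type*} [Group G] (W : Subgroup G) [hW : W.Normal] : (sq W).Normal := by
  constructor
  intro n hn g
  have : sq W ≤ (sq W).comap (MulAut.conj g).toMonoidHom := by
    rw [sq_le_iff]
    intro x hx
    rw [Subgroup.mem_comap]
    have : (MulAut.conj g).toMonoidHom (x ^ 2) = (g * x * g⁻¹) ^ 2 := by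
      simp [pow_two]
    rw [this]
    exact sq_mem_sq (hW.conj_mem x hx g)
  simpa using this hn

theorem Hyp.normalW {T : Type*} [Group T] {W : Subgroup T} (h : Hyp T W) : W.Normal := by
  rw [h.hW]; infer_instance

theorem fixS_self {G : Type*} [Group G] (N M : Subgroup G) [N.Normal]
    (hsq : ∀ x ∈ M, x ^ 2 ∈ N) : fixS N M M = M := by
  ext x
  rw [mem_fixS]
  constructor
  · exact fun h => h.1
  · intro hx
    refine ⟨hx, fun h hh => ?_⟩
    rw [commutatorElement_def]
    exact hpl_comm M N hsq x h hx hh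

theorem ORD {T : Type*} [Group T] [Finite T] {W : Subgroup T} (h : Hyp T W) :
    Nat.card T = 2 ^ 14 ∧ sq W = Subgroup.upperCentralSeries T 3 ∧ W.index = 8 ∧
      Nat.card W = 2 ^ 11 := by
  haveI : Fact (Nat.Prime 2) := ⟨Nat.prime_two⟩
  obtain ⟨h1, h2, h3⟩ := UCS h.two h.big h.z4
  haveI := h.normalW
  haveI : (sq W).Normal := sq_normal W
  have hidx : W.index ≤ 8 := by rw [h.hW]; exact IDX h1 h2 h3
  obtain ⟨k, hk⟩ := (IsPGroup.iff_card.1 (h.two.to_subgroup (sq W)))
  have hk3 : k ≤ 3 := by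
    have := h.hc
    rw [hk] at this
    by_contra hlt
    have : 2 ^ 4 ≤ 2 ^ k := Nat.pow_le_pow_right (by norm_num) (by omega)
    omega
  have hFk : sq W ≤ Subgroup.upperCentralSeries T k := NOR h.two (sq W) k hk.le
  have hZk : Nat.card ↥(Subgroup.upperCentralSeries T (k + 1)) = 2 ^ (k + 1) := by
    have := h.z4
    interval_cases k <;> simp_all
  have hfix : fixS (sq W) W ⊤ ≤ Subgroup.upperCentralSeries T (k + 1) := by
    intro x hx
    rw [Subgroup.mem_upperCentralSeries_succ_iff]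
    intro y
    exact hFk ((mem_fixS.1 hx).2 y (Subgroup.mem_top y))
  have hr : (sq W).relIndex (fixS (sq W) W ⊤) ≤ 2 := by
    have e := card_mul_relIndex' (le_fixS (sq W) W ⊤ (sq_le W))
    have e2 := Subgroup.card_le_of_le hfix
    rw [hZk, ← e, hk, pow_succ] at e2
    exact Nat.le_of_mul_le_mul_left e2 (by positivity)
  have hF := FIX (sq W) W (sq_le W) (fun x hx => sq_mem_sq hx) W ⊤ le_top (h.two.to_subgroup ⊤)
  rw [fixS_self (sq W) W (fun x hx => sq_mem_sq hx), Subgroup.relIndex_top_right] at hF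
  have hF2 : (sq W).relIndex W ≤ 2 ^ 8 :=
    calc (sq W).relIndex W ≤ _ := hF
      _ ≤ 2 ^ W.index := Nat.pow_le_pow_left hr _
      _ ≤ 2 ^ 8 := Nat.pow_le_pow_right (by norm_num) hidx
  have hcW := card_mul_relIndex' (sq_le W)
  rw [hk] at hcW
  have hT := Subgroup.card_mul_index W
  have hbig := h.big
  have hk8 : 2 ^ k ≤ 8 := by
    calc 2 ^ k ≤ 2 ^ 3 := Nat.pow_le_pow_right (by norm_num) hk3
      _ = 8 := by norm_num
  have hW2 : Nat.card W ≤ 2 ^ k * 256 := by
    rw [← hcW]; exact Nat.mul_le_mul_left _ (by simpa using hF2)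
  have hW3 : Nat.card W ≤ 2048 := by omega
  have hi8 : W.index = 8 := by
    by_contra hne
    have : W.index ≤ 7 := by omega
    have : Nat.card W * W.index ≤ 2048 * 7 := Nat.mul_le_mul hW3 this
    omega
  rw [hi8] at hT
  have hW4 : Nat.card W = 2048 := by omega
  have hk3' : k = 3 := by
    by_contra hne
    have : k ≤ 2 := by omega
    have : 2 ^ k ≤ 2 ^ 2 := Nat.pow_le_pow_right (by norm_num) this
    omega
  subst hk3'
  refine ⟨by omega, ?_, hi8, by omega⟩
  exact Subgroup.eq_of_le_of_card_ge hFk (by rw [hk, h3]; norm_num)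

end Cfsg.Agent.Lib.Helper27.T14
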