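import Cfsg.Agent.Lib.Helper27.T14.Defs2
import Cfsg.Agent.Lib.Helper27.T14.Basic
import Cfsg.Agent.Lib.Helper27.T14.HALF
import Cfsg.Agent.Lib.Helper27.T14.FIXSTEP
import Cfsg.Agent.Lib.Helper27.T14.ORD

namespace Cfsg.Agent.Lib.Helper27.T14
open Subgroup
open scoped commutatorElement

theorem cnt_mk_dl {G : Type*} [Group G] (N : Subgroup G) [N.Normal] (b a : G) :
    ((dl b a : G) : G ⧸ N) = (a : G ⧸ N) * ((b : G ⧸ N) * (a : G ⧸ N) * (b : G ⧸ N)⁻¹) := by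
  unfold dl
  simp only [QuotientGroup.mk_mul, QuotientGroup.mk_inv]

theorem cnt_arith (a b m : ℕ) (h : a * b = m * m) (hba : b ≤ a) (ha : a ≤ m) : a = m ∧ b = m := by
  have hb : b ≤ m := hba.trans ha
  rcases Nat.lt_or_ge a m with h1 | h1
  · exfalso
    have : a * b < m * m := by
      rcases Nat.eq_zero_or_pos b with h0 | h0
      · subst h0; simp at h ⊢; omega
      · calc a * b < m * b := Nat.mul_lt_mul_of_pos_right h1 h0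
          _ ≤ m * m := Nat.mul_le_mul_left _ hb
    omega
  · have ham : a = m := le_antisymm ha h1
    subst ham
    refine ⟨rfl, ?_⟩
    rcases Nat.eq_zero_or_pos a with h0 | h0
    · subst h0; omega
    · exact Nat.eq_of_mul_eq_mul_left h0 h

/-- CNT (uses HALF FIXSTEP) -/
theorem CNT {T : Type*} [Group T] [Finite T] {W Z2 Z3 Z4 : Subgroup T} (c : Ctx T W Z2 Z3 Z4)
    (z s : T) (H1 H2 : Subgroup T) (h01 : W ≤ H1) (h12 : H1 ≤ H2) (i1 : W.relIndex H1 = 2)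
    (i2 : H1.relIndex H2 = 2) (i3 : H2.relIndex ⊤ = 2) (hz : z ∈ H1) (hz' : z ∉ W) (hs : s ∈ H2)
    (hs' : s ∉ H1) (e : T) (he : e ∈ W) (he4 : e ∈ Z4) :
    (∃ v1 ∈ W, (dl s (dl z v1))⁻¹ * e ∈ Z3) ∧
    ∃ K : Subgroup T, Z3 ≤ K ∧ K ≤ W ∧ Nat.card K = 2 ^ 7 ∧
      (∀ k ∈ K, ∃ a ∈ W, (dl z a)⁻¹ * k ∈ Z3) ∧ (∀ k ∈ K, ⁅k, z⁆ ∈ Z3) := by
  haveI := c.n3
  haveI := c.nW
  have hF0 : fixS Z3 W W = W := fixS_self Z3 W c.sqW
  have hF3 : fixS Z3 W ⊤ ≤ Z4 := fun x hx => by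
    rw [mem_fixS] at hx
    exact c.fix4 x hx.1 (fun t => hx.2 t (Subgroup.mem_top t))
  have c3 : Nat.card (fixS Z3 W ⊤) ≤ 16 := c.c4 ▸ Subgroup.card_le_of_le hF3
  have hst := FIXSTEP Z3 W c.le3W c.sqW H2 ⊤ le_top i3
  have r3 := card_mul_relIndex' (le_fixS Z3 W ⊤ c.le3W)
  have r2 := card_mul_relIndex' (le_fixS Z3 W H2 c.le3W)
  rw [c.c3] at r3 r2
  have c2 : Nat.card (fixS Z3 W H2) ≤ 32 := by
    have h1 : Z3.relIndex (fixS Z3 W ⊤) ≤ 2 := by omega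
    have h2 : Z3.relIndex (fixS Z3 W H2) ≤ 4 := by
      calc _ ≤ _ := hst
        _ ≤ 2 ^ 2 := Nat.pow_le_pow_left h1 2
        _ = 4 := by norm_num
    omega
  obtain ⟨Is, hs1, hs2, hs3, hs4⟩ := HALF Z3 W c.le3W c.sqW H1 H2 h12 i2 s hs hs'
  obtain ⟨Iz, hz1, hz2, hz3, hz4⟩ := HALF Z3 W c.le3W c.sqW W H1 h01 i1 z hz hz'
  rw [hF0] at hz3 hz4
  rw [c.c3] at hs4 hz4
  rw [c.cW] at hz4
  have cIs : Nat.card Is ≤ Nat.card (fixS Z3 W H2) := Subgroup.card_le_of_le hs2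
  have cIz : Nat.card Iz ≤ Nat.card (fixS Z3 W H1) := Subgroup.card_le_of_le hz2
  have c1 : Nat.card (fixS Z3 W H1) ≤ 128 := by
    have : Nat.card (fixS Z3 W H2) * Nat.card Is ≤ 32 * 32 := Nat.mul_le_mul c2 (cIs.trans c2)
    omega
  obtain ⟨e1, e1'⟩ := cnt_arith _ _ 128 (by rw [← hz4]; norm_num) cIz c1
  rw [e1] at hs4
  obtain ⟨e2, e2'⟩ := cnt_arith _ _ 32 (by rw [← hs4]) cIs c2
  have hIz : Iz = fixS Z3 W H1 := Subgroup.eq_of_le_of_card_ge hz2 (by rw [e1, e1'])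
  have hIs : Is = fixS Z3 W H2 := Subgroup.eq_of_le_of_card_ge hs2 (by rw [e2, e2'])
  refine ⟨?_, fixS Z3 W H1, le_fixS Z3 W H1 c.le3W, fun x hx => (mem_fixS.1 hx).1, by rw [e1]; norm_num,
    ?_, fun k hk => (mem_fixS.1 hk).2 z hz⟩
  · have heI : e ∈ Is := by
      rw [hIs, mem_fixS]
      exact ⟨he, fun t _ => c.mem4 e he4 t⟩
    obtain ⟨k, hk, hke⟩ := (hs3 e).1 heI
    rw [← hIz] at hk
    obtain ⟨v1, hv1, hvk⟩ := (hz3 k).1 hk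
    refine ⟨v1, hv1, ?_⟩
    rw [← QuotientGroup.eq] at hke hvk ⊢
    rw [← hke, cnt_mk_dl, cnt_mk_dl Z3 s k, hvk]
  · intro k hk
    rw [← hIz] at hk
    exact (hz3 k).1 hk

end Cfsg.Agent.Lib.Helper27.T14
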