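import Cfsg.Agent.Lib.Helper27.T14.DER

namespace Cfsg.Agent.Lib.Helper27.T14
open Subgroup
open scoped commutatorElement

theorem ctx_idx2 {T : Type*} [Group T] [Finite T]
    (h1 : Nat.card ↥(Subgroup.upperCentralSeries T 1) = 2)
    (h2 : Nat.card ↥(Subgroup.upperCentralSeries T 2) = 4) :
    (Subgroup.centralizer ((Subgroup.upperCentralSeries T 2 : Subgroup T) : Set T)).index = 2 := by
  have m12 : Subgroup.upperCentralSeries T 1 ≤ Subgroup.upperCentralSeries T 2 :=
    Subgroup.upperCentralSeries_mono T (by norm_num)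
  obtain ⟨x2, hx2, hx2'⟩ := idx_exists m12 (by omega)
  have hcent : ∀ t : T, t * x2 = x2 * t →
      t ∈ Subgroup.centralizer ((Subgroup.upperCentralSeries T 2 : Subgroup T) : Set T) := by
    intro t ht2
    set S : Subgroup T := Subgroup.upperCentralSeries T 2 ⊓ Subgroup.centralizer {t} with hS
    have hmem : ∀ y, y ∈ S ↔ y ∈ Subgroup.upperCentralSeries T 2 ∧ t * y = y * t := by
      intro y
      rw [hS, Subgroup.mem_inf, Subgroup.mem_centralizer_singleton_iff]
      constructor
      · rintro ⟨a, b⟩; exact ⟨a, b.symm⟩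
      · rintro ⟨a, b⟩; exact ⟨a, b.symm⟩
    have z1S : Subgroup.upperCentralSeries T 1 ≤ S := by
      intro y hy
      rw [hmem]
      refine ⟨m12 hy, ?_⟩
      rw [Subgroup.upperCentralSeries_one, Subgroup.mem_center_iff] at hy
      exact hy t
    have hlt : Subgroup.upperCentralSeries T 1 < S := by
      refine lt_of_le_of_ne z1S fun he => hx2' ?_
      rw [he]
      exact (hmem x2).2 ⟨hx2, ht2⟩
    have hc := ucs_two_mul hlt
    have z2S : S = Subgroup.upperCentralSeries T 2 :=
      Subgroup.eq_of_le_of_card_ge inf_le_left (by omega)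
    rw [Subgroup.mem_centralizer_iff]
    intro y hy
    have : y ∈ S := by rw [z2S]; exact hy
    exact ((hmem y).1 this).2.symm
  have hle : (Subgroup.centralizer ((Subgroup.upperCentralSeries T 2 : Subgroup T) : Set T)).index
      ≤ 2 := by
    refine le_of_le_of_eq ?_ h1
    refine idx_le _ (fun t => (⟨⁅x2, t⁆, (Subgroup.mem_upperCentralSeries_succ_iff.1 hx2) t⟩ :
      ↥(Subgroup.upperCentralSeries T 1))) ?_
    intro t t' htt
    simp only [Subtype.mk.injEq, commutatorElement_def] at htt
    apply hcent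
    have h4 : t * x2⁻¹ * t⁻¹ = t' * x2⁻¹ * t'⁻¹ := by
      have := congrArg (fun g => x2⁻¹ * g) htt
      simpa [mul_assoc] using this
    have h5 : x2⁻¹ * (t⁻¹ * t') = (t⁻¹ * t') * x2⁻¹ := by
      calc x2⁻¹ * (t⁻¹ * t') = t⁻¹ * (t * x2⁻¹ * t⁻¹) * t' := by group
        _ = t⁻¹ * (t' * x2⁻¹ * t'⁻¹) * t' := by rw [h4]
        _ = (t⁻¹ * t') * x2⁻¹ := by group
    calc (t⁻¹ * t') * x2 = x2 * (x2⁻¹ * (t⁻¹ * t')) * x2 := by group
      _ = x2 * ((t⁻¹ * t') * x2⁻¹) * x2 := by rw [h5]
      _ = x2 * (t⁻¹ * t') := by group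
  have hne : (Subgroup.centralizer ((Subgroup.upperCentralSeries T 2 : Subgroup T) : Set T)).index
      ≠ 1 := by
    intro h
    rw [Subgroup.index_eq_one] at h
    apply hx2'
    rw [Subgroup.upperCentralSeries_one, Subgroup.mem_center_iff]
    intro g
    have : g ∈ Subgroup.centralizer ((Subgroup.upperCentralSeries T 2 : Subgroup T) : Set T) := by
      rw [h]; exact Subgroup.mem_top g
    rw [Subgroup.mem_centralizer_iff] at this
    exact (this x2 hx2).symm
  have hpos : (Subgroup.centralizer ((Subgroup.upperCentralSeries T 2 : Subgroup T) : Set T)).index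
      ≠ 0 := Subgroup.index_ne_zero_of_finite
  omega

theorem CTX {T : Type*} [Group T] [Finite T] {W : Subgroup T} (h : Hyp T W) :
    Ctx T W (Subgroup.upperCentralSeries T 2) (Subgroup.upperCentralSeries T 3)
      (Subgroup.upperCentralSeries T 4) := by
  obtain ⟨h1, h2, h3⟩ := UCS h.two h.big h.z4
  obtain ⟨-, hF, hidx, hcW⟩ := ORD h
  obtain ⟨hder, hel⟩ := DER h
  have hsq : ∀ x ∈ W, x ^ 2 ∈ Subgroup.upperCentralSeries T 3 := fun x hx => hF ▸ sq_mem_sq hx
  exact
  { two := h.two
    nW := h.normalW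
    n2 := inferInstance
    n3 := inferInstance
    le23 := Subgroup.upperCentralSeries_mono T (by norm_num)
    le3W := hF ▸ sq_le W
    c2 := h2
    c3 := h3
    c4 := h.z4
    cW := hcW
    idx := hidx
    idx2 := ctx_idx2 h1 h2
    cen3 := by
      intro w hw y hy
      rw [h.hW, Subgroup.mem_centralizer_iff] at hw
      exact (hw y hy).symm
    memW := by
      intro t ht
      rw [h.hW, Subgroup.mem_centralizer_iff]
      exact fun y hy => (ht y hy).symm
    el3 := hel
    act3 := fun y hy t => (Subgroup.mem_upperCentralSeries_succ_iff.1 hy) t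
    sqW := hsq
    cmW := by
      intro a ha b hb
      rw [commutatorElement_def]
      exact hpl_comm W _ hsq a b ha hb
    fix4 := fun x _ hx => Subgroup.mem_upperCentralSeries_succ_iff.2 hx
    mem4 := fun x hx t => (Subgroup.mem_upperCentralSeries_succ_iff.1 hx) t
    le34 := Subgroup.upperCentralSeries_mono T (by norm_num)
    hd := hF ▸ h.hd }

end Cfsg.Agent.Lib.Helper27.T14
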