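import Cfsg.Agent.Lib.Helper27.T14.ORD

namespace Cfsg.Agent.Lib.Helper27.T14
open Subgroup
open scoped commutatorElement

/-- in a group where `[x,y]` commutes with `x`, `[x,y]^2 = [x^2,y]`. -/
theorem der_sq {G : Type*} [Group G] (x y : G) (h : ⁅x, y⁆ * x = x * ⁅x, y⁆) :
    ⁅x, y⁆ * ⁅x, y⁆ = ⁅x ^ 2, y⁆ := by
  rw [commutatorElement_def] at h ⊢
  rw [commutatorElement_def]
  calc x * y * x⁻¹ * y⁻¹ * (x * y * x⁻¹ * y⁻¹)
      = (x * y * x⁻¹ * y⁻¹ * x) * y * x⁻¹ * y⁻¹ := by group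
    _ = (x * (x * y * x⁻¹ * y⁻¹)) * y * x⁻¹ * y⁻¹ := by rw [h]
    _ = x ^ 2 * y * (x ^ 2)⁻¹ * y⁻¹ := by rw [pow_two]; group

theorem DER {T : Type*} [Group T] [Finite T] {W : Subgroup T} (h : Hyp T W) :
    ⁅W, W⁆ = Subgroup.upperCentralSeries T 3 ∧
      ∀ y ∈ Subgroup.upperCentralSeries T 3, y * y = 1 := by
  haveI : Fact (Nat.Prime 2) := ⟨Nat.prime_two⟩
  obtain ⟨h1, h2, h3⟩ := UCS h.two h.big h.z4
  obtain ⟨-, hF, hidx, hcW⟩ := ORD h
  haveI := h.normalW
  set Z2 := Subgroup.upperCentralSeries T 2 with hZ2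
  set Z3 := Subgroup.upperCentralSeries T 3 with hZ3
  have m23 : Z2 ≤ Z3 := Subgroup.upperCentralSeries_mono T (by norm_num)
  have hsq : ∀ x ∈ W, x ^ 2 ∈ Z3 := fun x hx => hF ▸ sq_mem_sq hx
  have h3W : Z3 ≤ W := hF ▸ sq_le W
  have hcen : ∀ w ∈ W, ∀ y ∈ Z3, y * w = w * y := by
    intro w hw y hy
    rw [h.hW, Subgroup.mem_centralizer_iff] at hw
    exact hw y hy
  have hle : ⁅W, W⁆ ≤ Z3 := by
    rw [Subgroup.commutator_le]
    intro a ha b hb
    rw [commutatorElement_def]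
    exact hpl_comm W Z3 hsq a b ha hb
  have hmain : ⁅W, W⁆ = Z3 := by
    by_contra hne
    have hlt : ⁅W, W⁆ < Z3 := lt_of_le_of_ne hle hne
    have hc := ucs_two_mul hlt
    have hle2 : ⁅W, W⁆ ≤ Z2 := NOR h.two _ 2 (by omega)
    -- E = {x ∈ W | x^2 ∈ Z2}
    have hcomm2 : ∀ a ∈ W, ∀ b ∈ W, (a : T ⧸ Z2) * (b : T ⧸ Z2) = (b : T ⧸ Z2) * (a : T ⧸ Z2) := by
      intro a ha b hb
      rw [← half_comm_iff]
      exact hle2 (Subgroup.commutator_mem_commutator ha hb)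
    let σ : ↥W →* T ⧸ Z2 := MonoidHom.mk' (fun w => (((w : T) ^ 2 : T) : T ⧸ Z2)) (by
      intro a b
      have c := hcomm2 a a.2 b b.2
      simp only [Subgroup.coe_mul, pow_two, QuotientGroup.mk_mul]
      calc ((a : T) : T ⧸ Z2) * ((b : T) : T ⧸ Z2) * (((a : T) : T ⧸ Z2) * ((b : T) : T ⧸ Z2))
          = ((a : T) : T ⧸ Z2) * (((b : T) : T ⧸ Z2) * ((a : T) : T ⧸ Z2)) * ((b : T) : T ⧸ Z2) := by
            group
        _ = ((a : T) : T ⧸ Z2) * (((a : T) : T ⧸ Z2) * ((b : T) : T ⧸ Z2)) * ((b : T) : T ⧸ Z2) := by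
            rw [c]
        _ = _ := by group)
    have σa : ∀ w : ↥W, σ w = (((w : T) ^ 2 : T) : T ⧸ Z2) := fun _ => rfl
    have hrange : σ.range ≤ Z3.map (QuotientGroup.mk' Z2) := by
      rintro _ ⟨w, rfl⟩
      exact ⟨_, hsq _ w.2, rfl⟩
    have hc32 : Nat.card (Z3.map (QuotientGroup.mk' Z2)) = 2 := by
      rw [← Subgroup.relIndex_ker, QuotientGroup.ker_mk']
      have := card_mul_relIndex' m23
      rw [h2, h3] at this
      omega
    have hker : σ.ker.index ≤ 2 := by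
      rw [Subgroup.index_ker]
      exact (Subgroup.card_le_of_le hrange).trans hc32.le
    set E : Subgroup T := σ.ker.map W.subtype with hE
    have hEW : E ≤ W := by
      rintro _ ⟨x, -, rfl⟩; exact x.2
    have hEr : E.relIndex W ≤ 2 := by
      rw [Subgroup.relIndex, Subgroup.subgroupOf, hE,
        Subgroup.comap_map_eq_self_of_injective W.subtype_injective]
      exact hker
    have memE : ∀ x, x ∈ E ↔ x ∈ W ∧ x ^ 2 ∈ Z2 := by
      intro x
      constructor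
      · rintro ⟨w, hw, rfl⟩
        refine ⟨w.2, ?_⟩
        have hw : w ∈ σ.ker := hw
        rw [MonoidHom.mem_ker, σa] at hw
        exact (QuotientGroup.eq_one_iff _).1 hw
      · rintro ⟨hx, hx2⟩
        refine ⟨⟨x, hx⟩, ?_, rfl⟩
        show (⟨x, hx⟩ : ↥W) ∈ σ.ker
        rw [MonoidHom.mem_ker, σa]
        exact (QuotientGroup.eq_one_iff _).2 hx2
    obtain ⟨y, hy3, hy2⟩ := idx_exists m23 (by omega)
    have r32 : Z2.relIndex Z3 = 2 := by
      have := card_mul_relIndex' m23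
      rw [h2, h3] at this
      omega
    have hyE : y ∈ E := by
      rw [memE]
      refine ⟨h3W hy3, ?_⟩
      rw [pow_two, half_two_iff r32 hy3 hy3]
    have h2E : Z2 ≤ E := by
      intro x hx
      rw [memE]
      exact ⟨h3W (m23 hx), Z2.pow_mem hx 2⟩
    obtain ⟨U, hNU, hUE, hyU, hU2⟩ := HPL E Z2 h2E (fun x hx => ((memE x).1 hx).2) y hyE hy2
    have hUW : U.relIndex W ≤ 16 := by
      rw [← Subgroup.relIndex_mul_relIndex U E W hUE hEW, hU2]
      omega
    exact hyU (h.hd U (hUE.trans hEW) hUW (hF ▸ hy3))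
  refine ⟨hmain, ?_⟩
  -- elementary
  have hgen : ∀ a ∈ W, ∀ b ∈ W, ⁅a, b⁆ * ⁅a, b⁆ = 1 := by
    intro a ha b hb
    have hab : ⁅a, b⁆ ∈ Z3 := hle (Subgroup.commutator_mem_commutator ha hb)
    rw [der_sq a b (hcen a ha _ hab)]
    have := hcen b hb _ (hsq a ha)
    rw [commutatorElement_def, this]
    group
  have hab3 : ∀ x ∈ Z3, ∀ y ∈ Z3, x * y = y * x := fun x hx y hy => hcen y (h3W hy) x hx
  intro y hy
  rw [← hmain] at hy
  have hcl : ∀ y ∈ ⁅W, W⁆, y * y = 1 := by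
    intro y hy
    rw [Subgroup.commutator_def] at hy
    induction hy using Subgroup.closure_induction with
    | mem x hx =>
      obtain ⟨a, ha, b, hb, rfl⟩ := hx
      exact hgen a ha b hb
    | one => simp
    | mul x y hx hy ihx ihy =>
      have hx3 : x ∈ Z3 := hle (by rw [Subgroup.commutator_def]; exact hx)
      have hy3 : y ∈ Z3 := hle (by rw [Subgroup.commutator_def]; exact hy)
      calc x * y * (x * y) = x * (y * x) * y := by group
        _ = x * (x * y) * y := by rw [hab3 y hy3 x hx3]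
        _ = (x * x) * (y * y) := by group
        _ = 1 := by rw [ihx, ihy, one_mul]
    | inv x hx ihx =>
      have : x⁻¹ * x⁻¹ = (x * x)⁻¹ := by group
      rw [this, ihx, inv_one]
  exact hcl y hy

end Cfsg.Agent.Lib.Helper27.T14
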