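import Cfsg.Agent.Lib.Helper27.T14.Defs

namespace Cfsg.Agent.Lib.Helper27.T14
open Subgroup

theorem ucs_two_mul {G : Type*} [Group G] [Finite G] {H K : Subgroup G} (h : H < K) :
    2 * Nat.card H ≤ Nat.card K := by
  obtain ⟨k, hk⟩ := Subgroup.card_dvd_of_le h.le
  have hpos : 0 < Nat.card H := Nat.card_pos
  have hlt : Nat.card H < Nat.card K := by
    rcases lt_or_eq_of_le (Subgroup.card_le_of_le h.le) with h1 | h1
    · exact h1
    · exact absurd (Subgroup.eq_of_le_of_card_ge h.le h1.ge) h.ne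
  rw [hk] at hlt ⊢
  have : 2 ≤ k := by
    by_contra hk2
    have : k = 0 ∨ k = 1 := by omega
    rcases this with rfl | rfl <;> simp at hlt
  nlinarith

theorem ucs_stab {T : Type*} [Group T] (i : ℕ)
    (h : Subgroup.upperCentralSeries T (i + 1) = Subgroup.upperCentralSeries T i) (j : ℕ) :
    Subgroup.upperCentralSeries T (i + j) = Subgroup.upperCentralSeries T i := by
  induction j with
  | zero => rfl
  | succ j ih =>
    ext x
    rw [← add_assoc, Subgroup.mem_upperCentralSeries_succ_iff, ih]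
    conv_rhs => rw [← h, Subgroup.mem_upperCentralSeries_succ_iff]

theorem ucs_lt {T : Type*} [Group T] [Finite T] (hT : IsPGroup 2 T) (i : ℕ)
    (h : Subgroup.upperCentralSeries T i ≠ ⊤) :
    Subgroup.upperCentralSeries T i < Subgroup.upperCentralSeries T (i + 1) := by
  refine lt_of_le_of_ne (Subgroup.upperCentralSeries_mono T (Nat.le_succ i)) fun he => h ?_
  haveI : Fact (Nat.Prime 2) := ⟨Nat.prime_two⟩
  haveI := hT.isNilpotent
  obtain ⟨n, hn⟩ := (Group.isNilpotent_iff (G := T)).1 inferInstance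
  have h1 := ucs_stab i he.symm n
  have h2 : Subgroup.upperCentralSeries T n ≤ Subgroup.upperCentralSeries T (i + n) :=
    Subgroup.upperCentralSeries_mono T (Nat.le_add_left n i)
  rw [hn, h1] at h2
  exact top_le_iff.1 h2

theorem UCS {T : Type*} [Group T] [Finite T] (hT : IsPGroup 2 T) (ha : 2 ^ 14 ≤ Nat.card T)
    (hb : Nat.card ↥(Subgroup.upperCentralSeries T 4) = 16) :
    Nat.card ↥(Subgroup.upperCentralSeries T 1) = 2 ∧
    Nat.card ↥(Subgroup.upperCentralSeries T 2) = 4 ∧
    Nat.card ↥(Subgroup.upperCentralSeries T 3) = 8 := by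
  have hne : ∀ i ≤ 4, Subgroup.upperCentralSeries T i ≠ ⊤ := by
    intro i hi he
    have h1 : Subgroup.upperCentralSeries T i ≤ Subgroup.upperCentralSeries T 4 :=
      Subgroup.upperCentralSeries_mono T hi
    rw [he] at h1
    have h2 := Subgroup.card_le_of_le h1
    rw [hb, Subgroup.card_top] at h2
    omega
  have l0 := ucs_two_mul (ucs_lt hT 0 (hne 0 (by norm_num)))
  have l1 := ucs_two_mul (ucs_lt hT 1 (hne 1 (by norm_num)))
  have l2 := ucs_two_mul (ucs_lt hT 2 (hne 2 (by norm_num)))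
  have l3 := ucs_two_mul (ucs_lt hT 3 (hne 3 (by norm_num)))
  have p0 : 0 < Nat.card ↥(Subgroup.upperCentralSeries T 0) := Nat.card_pos
  simp only [zero_add, Nat.reduceAdd] at l0 l1 l2 l3
  rw [hb] at l3
  omega

end Cfsg.Agent.Lib.Helper27.T14
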