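import Cfsg.Agent.Lib.Helper27.T14.Defs2
import Cfsg.Agent.Lib.Helper27.T14.ORD
import Cfsg.Agent.Lib.Helper27.T14.UCS
import Cfsg.Agent.Lib.Helper27.T14.DER
import Cfsg.Agent.Lib.Helper27.T14.CTX

namespace Cfsg.Agent.Lib.Helper27.T14
open Subgroup
open scoped commutatorElement

/- PROOF ELT. z1 = the nontrivial element of Z1, x2 in Z2 \ Z1, x3 in Z3 \ Z2. Z3 = {z1^i x2^j x3^k}. The map t |-> (t x2 t^-1 x2^-1, t x3 t^-1 x3^-1) in Z1 x Z2 is constant exactly on the cosets of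
   W = C(Z3) = C(x2) ⊓ C(x3); W.index = 8 = |Z1 x Z2| so it is onto. s := preimage of (1, x2), p := preimage of (z1, 1). (Z3 abelian: Z3 <= W = C(Z3).)
-/
/-- ELT (uses ORD UCS DER) -/
theorem ELT {T : Type*} [Group T] [Finite T] {W : Subgroup T} (h : Hyp T W) :
    ∃ z1 x2 x3 s p : T, z1 ∈ Subgroup.upperCentralSeries T 1 ∧ z1 ≠ 1 ∧
      x2 ∈ Subgroup.upperCentralSeries T 2 ∧ x2 ∉ Subgroup.upperCentralSeries T 1 ∧
      x3 ∈ Subgroup.upperCentralSeries T 3 ∧ x3 ∉ Subgroup.upperCentralSeries T 2 ∧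
      s * x2 * s⁻¹ = x2 ∧ s * x3 * s⁻¹ = x3 * x2 ∧ p * x2 * p⁻¹ = x2 * z1 ∧ p * x3 * p⁻¹ = x3 := by
  obtain ⟨h1, h2, h3⟩ := UCS h.two h.big h.z4
  obtain ⟨-, -, hidx, -⟩ := ORD h
  obtain ⟨z1, hz1, hz1'⟩ := idx_exists (bot_le : (⊥ : Subgroup T) ≤ Subgroup.upperCentralSeries T 1)
    (by rw [Subgroup.card_bot]; omega)
  obtain ⟨x2, hx2, hx2'⟩ := idx_exists (Subgroup.upperCentralSeries_mono T (show 1 ≤ 2 by norm_num))
    (by omega)
  obtain ⟨x3, hx3, hx3'⟩ := idx_exists (Subgroup.upperCentralSeries_mono T (show 2 ≤ 3 by norm_num))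
    (by omega)
  have e : Nat.card (↥(Subgroup.upperCentralSeries T 1) × ↥(Subgroup.upperCentralSeries T 2)) = 8 := by
    rw [Nat.card_prod, h1, h2]
  let φ : T → ↥(Subgroup.upperCentralSeries T 1) × ↥(Subgroup.upperCentralSeries T 2) := fun t =>
    (⟨⁅x2⁻¹, t⁆, (Subgroup.mem_upperCentralSeries_succ_iff.1 (inv_mem hx2)) t⟩,
      ⟨⁅x3⁻¹, t⁆, (Subgroup.mem_upperCentralSeries_succ_iff.1 (inv_mem hx3)) t⟩)
  have hφ : ∀ t t', φ t = φ t' → t⁻¹ * t' ∈ W := by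
    intro t t' htt
    simp only [φ, Prod.mk.injEq, Subtype.mk.injEq, commutatorElement_def, inv_inv] at htt
    obtain ⟨e2, e3⟩ := htt
    have key : ∀ x : T, x⁻¹ * t * x * t⁻¹ = x⁻¹ * t' * x * t'⁻¹ → (t⁻¹ * t') * x = x * (t⁻¹ * t') := by
      intro x hx
      have h4 : t * x * t⁻¹ = t' * x * t'⁻¹ := by
        have := congrArg (fun g => x * g) hx
        simpa [mul_assoc] using this
      calc (t⁻¹ * t') * x = t⁻¹ * (t' * x * t'⁻¹) * t' := by group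
        _ = t⁻¹ * (t * x * t⁻¹) * t' := by rw [h4]
        _ = x * (t⁻¹ * t') := by group
    rw [h.hW]
    exact idx_cent h1 h2 h3 x2 x3 hx2 hx2' hx3 hx3' _ (key x2 e2) (key x3 e3)
  let ψ : T ⧸ W → ↥(Subgroup.upperCentralSeries T 1) × ↥(Subgroup.upperCentralSeries T 2) :=
    fun q => φ q.out
  have hψ : Function.Injective ψ := by
    intro q q' hq
    have := hφ _ _ hq
    rw [← QuotientGroup.eq] at this
    simpa using this
  have hbij : Function.Bijective ψ := by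
    apply hψ.bijective_of_nat_card_le
    rw [e]
    exact hidx.ge
  obtain ⟨qs, hqs⟩ := hbij.2 (1, ⟨x2, hx2⟩)
  obtain ⟨qp, hqp⟩ := hbij.2 (⟨z1, hz1⟩, 1)
  simp only [ψ, φ, Prod.mk.injEq, commutatorElement_def, inv_inv] at hqs hqp
  obtain ⟨s1, s2⟩ := hqs
  obtain ⟨p1, p2⟩ := hqp
  have s1' := congrArg Subtype.val s1
  have s2' := congrArg Subtype.val s2
  have p1' := congrArg Subtype.val p1
  have p2' := congrArg Subtype.val p2
  simp only [Subgroup.coe_one] at s1' s2' p1' p2'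
  refine ⟨z1, x2, x3, qs.out, qp.out, hz1, fun hh => hz1' (Subgroup.mem_bot.mpr hh), hx2, hx2', hx3, hx3', ?_, ?_, ?_, ?_⟩
  · calc qs.out * x2 * qs.out⁻¹ = x2 * (x2⁻¹ * qs.out * x2 * qs.out⁻¹) := by group
      _ = x2 := by rw [s1', mul_one]
  · calc qs.out * x3 * qs.out⁻¹ = x3 * (x3⁻¹ * qs.out * x3 * qs.out⁻¹) := by group
      _ = x3 * x2 := by rw [s2']
  · calc qp.out * x2 * qp.out⁻¹ = x2 * (x2⁻¹ * qp.out * x2 * qp.out⁻¹) := by group
      _ = x2 * z1 := by rw [p1']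
  · calc qp.out * x3 * qp.out⁻¹ = x3 * (x3⁻¹ * qp.out * x3 * qp.out⁻¹) := by group
      _ = x3 := by rw [p2', mul_one]

end Cfsg.Agent.Lib.Helper27.T14
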