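import Cfsg.Agent.Lib.Helper27.T14.Defs2
import Cfsg.Agent.Lib.Helper27.T14.ELT
import Cfsg.Agent.Lib.Helper27.T14.ORD
import Cfsg.Agent.Lib.Helper27.T14.UCS
import Cfsg.Agent.Lib.Helper27.T14.DER
import Cfsg.Agent.Lib.Helper27.T14.CTX
import Cfsg.Agent.Lib.Helper59.TwoGroupRecog

namespace Cfsg.Agent.Lib.Helper27.T14
open Subgroup
open scoped commutatorElement

/- PROOF DIH. W normal (centralizer of a normal subgroup). t in W <=> t fixes x2 and x3. s^2, p^2 in W; (sp) : x3 -> x3 x2, x2 -> x2 z1; (sp)^2 : x3 -> x3 z1, x2 -> x2 (x2^2 = 1); (sp)^4 in W.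
   A = mk (s p) has order 4, B = mk s, B*B = 1, B A B^-1 = A^-1, B ∉ zpowers A (s acts differently from 1, (sp)^2; order reasons for A, A^3), card (T/W) = 8:
   Helper59.TwoGroupRecog.dihedral_recog (or Helper5.DihedralIso.dihEquiv).
-/
/-- DIH (uses ELT ORD UCS DER) -/
theorem DIH {T : Type*} [Group T] [Finite T] {W : Subgroup T} (h : Hyp T W) :
    ∃ (_ : W.Normal), Nonempty (T ⧸ W ≃* DihedralGroup 4) := by
  classical
  obtain ⟨z1, x2, x3, s, p, hz1, hz1ne, hx2, hx2n, hx3, hx3n, hs2, hs3, hp2, hp3⟩ := ELT h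
  obtain ⟨h1, h2, h3⟩ := UCS h.two h.big h.z4
  obtain ⟨-, hF, hidx, hcW⟩ := ORD h
  obtain ⟨-, hel⟩ := DER h
  haveI hn := h.normalW
  refine ⟨hn, ?_⟩
  have m12 : Subgroup.upperCentralSeries T 1 ≤ Subgroup.upperCentralSeries T 2 :=
    Subgroup.upperCentralSeries_mono T (by norm_num)
  have m23 : Subgroup.upperCentralSeries T 2 ≤ Subgroup.upperCentralSeries T 3 :=
    Subgroup.upperCentralSeries_mono T (by norm_num)
  have hZ1c : ∀ y ∈ Subgroup.upperCentralSeries T 1, ∀ t : T, t * y = y * t := by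
    intro y hy t
    rw [Subgroup.upperCentralSeries_one] at hy
    exact mem_center_iff.1 hy t
  have hz1c : ∀ t : T, t * z1 * t⁻¹ = z1 := by
    intro t
    rw [hZ1c z1 hz1 t]
    group
  have hx2sq : x2 * x2 = 1 := hel x2 (m23 hx2)
  have hz1sq : z1 * z1 = 1 := hel z1 (m23 (m12 hz1))
  have crit : ∀ t : T, t * x2 * t⁻¹ = x2 → t * x3 * t⁻¹ = x3 → t ∈ W := by
    intro t ht2 ht3
    rw [h.hW, mem_centralizer_iff]
    set U : Subgroup T := Subgroup.upperCentralSeries T 3 ⊓ centralizer {t} with hU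
    have memU : ∀ y ∈ Subgroup.upperCentralSeries T 3, t * y = y * t → y ∈ U := by
      intro y hy hc
      refine mem_inf.2 ⟨hy, ?_⟩
      rw [mem_centralizer_iff]
      intro a ha
      rw [Set.mem_singleton_iff] at ha
      rw [ha]
      exact hc
    have hU1 : Subgroup.upperCentralSeries T 1 ≤ U := fun y hy =>
      memU y (m23 (m12 hy)) (hZ1c y hy t)
    have hx2U : x2 ∈ U := memU x2 (m23 hx2) (by
      calc t * x2 = (t * x2 * t⁻¹) * t := by group
        _ = x2 * t := by rw [ht2])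
    have hx3U : x3 ∈ U := memU x3 hx3 (by
      calc t * x3 = (t * x3 * t⁻¹) * t := by group
        _ = x3 * t := by rw [ht3])
    have hZ2U : Subgroup.upperCentralSeries T 2 ≤ U := by
      have hlt : Subgroup.upperCentralSeries T 1 < U ⊓ Subgroup.upperCentralSeries T 2 :=
        lt_of_le_of_ne (le_inf hU1 m12) (fun e => hx2n (e ▸ mem_inf.2 ⟨hx2U, hx2⟩))
      have h5 := ucs_two_mul hlt
      have e : U ⊓ Subgroup.upperCentralSeries T 2 = Subgroup.upperCentralSeries T 2 :=
        Subgroup.eq_of_le_of_card_ge inf_le_right (by omega)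
      exact e ▸ inf_le_left
    have hZ3U : Subgroup.upperCentralSeries T 3 ≤ U := by
      have hlt : Subgroup.upperCentralSeries T 2 < U :=
        lt_of_le_of_ne hZ2U (fun e => hx3n (e ▸ hx3U))
      have h5 := ucs_two_mul hlt
      have e : U = Subgroup.upperCentralSeries T 3 :=
        Subgroup.eq_of_le_of_card_ge inf_le_left (by omega)
      exact e.ge
    intro y hy
    exact (mem_centralizer_iff.1 (hZ3U hy).2 t rfl).symm
  have conv : ∀ t ∈ W, ∀ y ∈ Subgroup.upperCentralSeries T 3, t * y * t⁻¹ = y := by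
    intro t ht y hy
    rw [h.hW, mem_centralizer_iff] at ht
    rw [← ht y hy]
    group
  have conj_mul : ∀ t a b : T, t * (a * b) * t⁻¹ = (t * a * t⁻¹) * (t * b * t⁻¹) := by
    intros; group
  have conj_conj : ∀ a b y : T, (a * b) * y * (a * b)⁻¹ = a * (b * y * b⁻¹) * a⁻¹ := by
    intros; group
  have hssW : s * s ∈ W := by
    apply crit
    · rw [conj_conj, hs2, hs2]
    · rw [conj_conj, hs3, conj_mul, hs3, hs2, mul_assoc, hx2sq, mul_one]
  have hppW : p * p ∈ W := by
    apply crit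
    · rw [conj_conj, hp2, conj_mul, hp2, hz1c, mul_assoc, hz1sq, mul_one]
    · rw [conj_conj, hp3, hp3]
  set g := s * p with hg
  have hg2 : g * x2 * g⁻¹ = x2 * z1 := by
    rw [hg, conj_conj, hp2, conj_mul, hs2, hz1c]
  have hg3 : g * x3 * g⁻¹ = x3 * x2 := by
    rw [hg, conj_conj, hp3, hs3]
  have hgg2 : (g * g) * x2 * (g * g)⁻¹ = x2 := by
    rw [conj_conj, hg2, conj_mul, hg2, hz1c, mul_assoc, hz1sq, mul_one]
  have hgg3 : (g * g) * x3 * (g * g)⁻¹ = x3 * z1 := by
    rw [conj_conj, hg3, conj_mul, hg3, hg2, mul_assoc, ← mul_assoc x2, hx2sq, one_mul]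
  have hg4W : (g * g) * (g * g) ∈ W := by
    apply crit
    · rw [conj_conj, hgg2, hgg2]
    · rw [conj_conj, hgg3, conj_mul, hgg3, hz1c, mul_assoc, hz1sq, mul_one]
  have hggW : g * g ∉ W := by
    intro hW
    have := conv _ hW x3 hx3
    rw [hgg3] at this
    exact hz1ne (mul_eq_left.1 this)
  have hx2ne : x2 ≠ 1 := by
    rintro rfl
    exact hx2n (one_mem _)
  have hsW : s ∉ W := by
    intro hW
    have := conv _ hW x3 hx3
    rw [hs3] at this
    exact hx2ne (mul_eq_left.1 this)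
  set A : T ⧸ W := (g : T ⧸ W) with hA
  set B : T ⧸ W := (s : T ⧸ W) with hB
  have hA2 : A ^ 2 ≠ 1 := by
    rw [hA, ← QuotientGroup.mk_pow, Ne, QuotientGroup.eq_one_iff, pow_two]
    exact hggW
  have hA4 : A ^ 4 = 1 := by
    rw [hA, ← QuotientGroup.mk_pow, QuotientGroup.eq_one_iff]
    have e : g ^ 4 = (g * g) * (g * g) := by
      simp only [pow_succ, pow_zero, one_mul, mul_assoc]
    rw [e]
    exact hg4W
  haveI : Fact (Nat.Prime 2) := ⟨Nat.prime_two⟩
  have hAo : orderOf A = 4 := by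
    have := orderOf_eq_prime_pow (p := 2) (n := 1) (x := A) (by simpa using hA2) (by simpa using hA4)
    simpa using this
  have hBB : B * B = 1 := by
    rw [hB, ← QuotientGroup.mk_mul, QuotientGroup.eq_one_iff]
    exact hssW
  have hBAB : B * A * B⁻¹ = A⁻¹ := by
    rw [eq_inv_iff_mul_eq_one, hA, hB, ← QuotientGroup.mk_inv, ← QuotientGroup.mk_mul,
      ← QuotientGroup.mk_mul, ← QuotientGroup.mk_mul, QuotientGroup.eq_one_iff]
    have e : s * g * s⁻¹ * g = (s * s) * (p * p) := by rw [hg]; group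
    rw [e]
    exact W.mul_mem hssW hppW
  have hBA : B ∉ Subgroup.zpowers A := by
    intro hmem
    rw [mem_zpowers_iff_mem_range_orderOf, hAo] at hmem
    simp only [Finset.mem_image, Finset.mem_range] at hmem
    obtain ⟨k, hk, hkB⟩ := hmem
    interval_cases k
    · rw [pow_zero] at hkB
      exact hsW ((QuotientGroup.eq_one_iff s).1 hkB.symm)
    · rw [pow_one] at hkB
      apply hA2
      rw [pow_two, hkB, hBB]
    · have h6 : (s : T ⧸ W) = ((g * g : T) : T ⧸ W) := by
        rw [QuotientGroup.mk_mul, ← pow_two]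
        exact hkB.symm
      have h7 : s⁻¹ * (g * g) ∈ W := QuotientGroup.eq.1 h6
      have h8 := conv _ h7 x3 hx3
      rw [conj_conj, hgg3] at h8
      have h9 : x3 * z1 = x3 * x2 := by
        calc x3 * z1 = s * (s⁻¹ * (x3 * z1) * s⁻¹⁻¹) * s⁻¹ := by group
          _ = s * x3 * s⁻¹ := by rw [h8]
          _ = x3 * x2 := hs3
      have h10 : z1 = x2 := mul_left_cancel h9
      exact hx2n (h10 ▸ hz1)
    · apply hA2
      have : A ^ 2 = (A ^ 3 * A ^ 3) * (A ^ 4)⁻¹ := by group
      rw [this, hkB, hBB, hA4]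
      simp
  exact Cfsg.Agent.Lib.Helper59.dihedral_recog 4 (by norm_num) A B hAo hBB hBAB hBA
    (by rw [← Subgroup.index_eq_card, hidx])

end Cfsg.Agent.Lib.Helper27.T14
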