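import Mathlib

/-! Ladder T14 (S3174, S3175): definitions. -/

namespace Cfsg.Agent.Lib.Helper27.T14

open Subgroup
open scoped commutatorElement

variable {G : Type*} [Group G]

/-- subgroup generated by the squares of the elements of `W` (= Frattini subgroup for 2-groups). -/
def sq (W : Subgroup G) : Subgroup G := Subgroup.closure ((fun x : G => x ^ 2) '' (W : Set G))

theorem sq_mem_sq {W : Subgroup G} {x : G} (hx : x ∈ W) : x ^ 2 ∈ sq W :=
  Subgroup.subset_closure ⟨x, hx, rfl⟩

theorem sq_le_iff {W N : Subgroup G} : sq W ≤ N ↔ ∀ x ∈ W, x ^ 2 ∈ N := by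
  unfold sq
  rw [Subgroup.closure_le]
  constructor
  · intro h x hx
    exact h ⟨x, hx, rfl⟩
  · rintro h _ ⟨x, hx, rfl⟩
    exact h x hx

theorem sq_le (W : Subgroup G) : sq W ≤ W := sq_le_iff.2 fun _ hx => W.pow_mem hx 2

theorem sq_mono {I W : Subgroup G} (h : I ≤ W) : sq I ≤ sq W :=
  sq_le_iff.2 fun _ hx => sq_mem_sq (h hx)

/-- preimage in `M` of the fixed points of `H` on `M/N`. -/
def fixS (N M H : Subgroup G) [N.Normal] : Subgroup G :=
  M ⊓ (Subgroup.centralizer ((H.map (QuotientGroup.mk' N) : Subgroup (G ⧸ N)) : Set (G ⧸ N))).comap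
    (QuotientGroup.mk' N)

theorem mem_fixS {N M H : Subgroup G} [N.Normal] {x : G} :
    x ∈ fixS N M H ↔ x ∈ M ∧ ∀ h ∈ H, ⁅x, h⁆ ∈ N := by
  unfold fixS
  rw [Subgroup.mem_inf, Subgroup.mem_comap, Subgroup.mem_centralizer_iff]
  refine and_congr_right fun _ => ?_
  constructor
  · intro h y hy
    have := h (QuotientGroup.mk' N y) (Subgroup.mem_map_of_mem _ hy)
    rw [← QuotientGroup.eq_one_iff, commutatorElement_def]
    simp only [QuotientGroup.mk'_apply] at this
    simp only [QuotientGroup.mk_mul, QuotientGroup.mk_inv]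
    rw [← this]; group
  · rintro h _ ⟨y, hy, rfl⟩
    have := h y hy
    rw [← QuotientGroup.eq_one_iff, commutatorElement_def] at this
    simp only [QuotientGroup.mk_mul, QuotientGroup.mk_inv] at this
    simp only [QuotientGroup.mk'_apply]
    have h2 : (x : G ⧸ N) * (y : G ⧸ N) = (y : G ⧸ N) * (x : G ⧸ N) := by
      calc (x : G ⧸ N) * (y : G ⧸ N)
          = ((x : G ⧸ N) * y * (x : G ⧸ N)⁻¹ * (y : G ⧸ N)⁻¹) * (y * x) := by group
        _ = y * x := by rw [this, one_mul]
    exact h2.symm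

/-- ambient form of the hypotheses of S3174 / S3175 (with `sq W` for the Frattini subgroup). -/
structure Hyp (T : Type*) [Group T] (W : Subgroup T) : Prop where
  two : IsPGroup 2 T
  big : 2 ^ 14 ≤ Nat.card T
  z4 : Nat.card ↥(Subgroup.upperCentralSeries T 4) = 16
  hW : W = Subgroup.centralizer ((Subgroup.upperCentralSeries T 3 : Subgroup T) : Set T)
  hc : Nat.card ↥(sq W) ≤ 8
  hd : ∀ U : Subgroup T, U ≤ W → U.relIndex W ≤ 16 → sq W ≤ U

end Cfsg.Agent.Lib.Helper27.T14
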