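import Cfsg.Agent.Lib.Helper27.T14.Defs

/-! Ladder T14 part 2 (S3174): definitions. -/

namespace Cfsg.Agent.Lib.Helper27.T14

open Subgroup
open scoped commutatorElement

/-- `dl b a = a * a^b` (the operator `1 + b` on a section written multiplicatively). -/
def dl {G : Type*} [Group G] (b a : G) : G := a * (b * a * b⁻¹)

/-- established facts about `T`, `W = C_T(Z_3)`, `Z_i = Z_i(T)`. -/
structure Ctx (T : Type*) [Group T] (W Z2 Z3 Z4 : Subgroup T) : Prop where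
  two : IsPGroup 2 T
  nW : W.Normal
  n2 : Z2.Normal
  n3 : Z3.Normal
  le23 : Z2 ≤ Z3
  le3W : Z3 ≤ W
  c2 : Nat.card Z2 = 4
  c3 : Nat.card Z3 = 8
  c4 : Nat.card Z4 = 16
  cW : Nat.card W = 2 ^ 11
  idx : W.index = 8
  idx2 : (Subgroup.centralizer (Z2 : Set T)).index = 2
  cen3 : ∀ w ∈ W, ∀ y ∈ Z3, w * y = y * w
  memW : ∀ t : T, (∀ y ∈ Z3, t * y = y * t) → t ∈ W
  el3 : ∀ y ∈ Z3, y * y = 1
  act3 : ∀ y ∈ Z3, ∀ t : T, ⁅y, t⁆ ∈ Z2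
  sqW : ∀ w ∈ W, w ^ 2 ∈ Z3
  cmW : ∀ a ∈ W, ∀ b ∈ W, ⁅a, b⁆ ∈ Z3
  fix4 : ∀ x ∈ W, (∀ t : T, ⁅x, t⁆ ∈ Z3) → x ∈ Z4
  mem4 : ∀ x ∈ Z4, ∀ t : T, ⁅x, t⁆ ∈ Z3
  le34 : Z3 ≤ Z4
  hd : ∀ U : Subgroup T, U ≤ W → U.relIndex W ≤ 16 → Z3 ≤ U

end Cfsg.Agent.Lib.Helper27.T14
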