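import Cfsg.Agent.Lib.Helper27.T14.Defs2
import Cfsg.Agent.Lib.Helper3.PGroup

namespace Cfsg.Agent.Lib.Helper27.T14
open Subgroup
open scoped commutatorElement

/- PROOF EXE. Zc = W ⊓ centralizer W is normal in T, contains Z3 (cen3) and x ∉ Z3. In the 2-group T/Z3 the image of Zc is a nontrivial normal subgroup, so it meets the centre
   (Helper3.PGroup.normal_inf_center_ne_bot'): e in Zc \ Z3 with [e,t] in Z3 for all t; e in Z4 by fix4.
-/
/-- EXE -/
theorem EXE {T : Type*} [Group T] [Finite T] {W Z2 Z3 Z4 : Subgroup T} (c : Ctx T W Z2 Z3 Z4)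
    (x : T) (hx : x ∈ W) (hxc : ∀ w ∈ W, x * w = w * x) (hx3 : x ∉ Z3) :
    ∃ e ∈ W, e ∈ Z4 ∧ e ∉ Z3 ∧ ∀ w ∈ W, e * w = w * e := by
  have : Fact (Nat.Prime 2) := ⟨Nat.prime_two⟩
  have hnW := c.nW
  have hn3 := c.n3
  let Zc : Subgroup T := W ⊓ Subgroup.centralizer (W : Set T)
  have hZcn : Zc.Normal := inferInstance
  let N : Subgroup (T ⧸ Z3) := Zc.map (QuotientGroup.mk' Z3)
  have hNn : N.Normal := hZcn.map _ (QuotientGroup.mk'_surjective Z3)
  have hxZc : x ∈ Zc := by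
    refine Subgroup.mem_inf.mpr ⟨hx, ?_⟩
    rw [Subgroup.mem_centralizer_iff]
    intro w hw
    exact (hxc w hw).symm
  have hN : N ≠ ⊥ := by
    intro h
    have h1 : QuotientGroup.mk' Z3 x ∈ N := Subgroup.mem_map_of_mem _ hxZc
    rw [h, Subgroup.mem_bot] at h1
    exact hx3 ((QuotientGroup.eq_one_iff x).mp h1)
  have h2 := Cfsg.Agent.Lib.Helper3.normal_inf_center_ne_bot' (c.two.to_quotient Z3) N hN
  obtain ⟨y, hy⟩ := (Subgroup.ne_bot_iff_exists_ne_one).mp h2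
  obtain ⟨hyN, hyc⟩ := Subgroup.mem_inf.mp y.2
  obtain ⟨e, heZ, hey⟩ := hyN
  obtain ⟨heW, hec⟩ := Subgroup.mem_inf.mp heZ
  have he3 : e ∉ Z3 := by
    intro h
    apply hy
    apply Subtype.ext
    rw [← hey]
    exact (QuotientGroup.eq_one_iff e).mpr h
  refine ⟨e, heW, ?_, he3, ?_⟩
  · apply c.fix4 e heW
    intro t
    rw [← QuotientGroup.eq_one_iff, commutatorElement_def]
    have h3 : (QuotientGroup.mk' Z3 t) * (QuotientGroup.mk' Z3 e) =
        (QuotientGroup.mk' Z3 e) * (QuotientGroup.mk' Z3 t) := by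
      rw [hey]
      exact Subgroup.mem_center_iff.mp hyc _
    have h4 : ((e * t * e⁻¹ * t⁻¹ : T) : T ⧸ Z3) = (QuotientGroup.mk' Z3 e) * (QuotientGroup.mk' Z3 t) *
        (QuotientGroup.mk' Z3 e)⁻¹ * (QuotientGroup.mk' Z3 t)⁻¹ := rfl
    rw [h4, ← h3]
    group
  · intro w hw
    exact ((Subgroup.mem_centralizer_iff.mp hec) w hw).symm

end Cfsg.Agent.Lib.Helper27.T14
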