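import Cfsg.Agent.Lib.Helper27.T14.M1
import Cfsg.Agent.Lib.Helper27.T14.HALF

namespace Cfsg.Agent.Lib.Helper27.T14
open Subgroup
open scoped commutatorElement

theorem Ctx.r23 {T : Type*} [Group T] {W Z2 Z3 Z4 : Subgroup T} (c : Ctx T W Z2 Z3 Z4) :
    Z2.relIndex Z3 = 2 := by
  have := card_mul_relIndex' c.le23
  rw [c.c2, c.c3] at this
  omega

/-- `[z u, v] = [u, v]` for `z` commuting with `u`, `v`. -/
theorem l1_cen {G : Type*} [Group G] (z u v : G) (h1 : z * u = u * z) (h2 : z * v = v * z) :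
    ⁅z * u, v⁆ = ⁅u, v⁆ := by
  rw [commutatorElement_def, commutatorElement_def]
  calc z * u * v * (z * u)⁻¹ * v⁻¹ = z * u * v * u⁻¹ * z⁻¹ * v⁻¹ := by group
    _ = (z * u) * v * u⁻¹ * (z⁻¹ * v⁻¹) := by group
    _ = (u * z) * v * u⁻¹ * (v * z)⁻¹ := by rw [h1]; group
    _ = (u * z) * v * u⁻¹ * (z * v)⁻¹ := by rw [h2]
    _ = u * (z * v) * u⁻¹ * v⁻¹ * z⁻¹ := by group
    _ = u * (v * z) * u⁻¹ * v⁻¹ * z⁻¹ := by rw [h2]
    _ = u * v * (z * u⁻¹) * v⁻¹ * z⁻¹ := by group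
    _ = u * v * (u⁻¹ * z) * v⁻¹ * z⁻¹ := by
        have : z * u⁻¹ = u⁻¹ * z := by
          calc z * u⁻¹ = u⁻¹ * (u * z) * u⁻¹ := by group
            _ = u⁻¹ * (z * u) * u⁻¹ := by rw [h1]
            _ = u⁻¹ * z := by group
        rw [this]
    _ = u * v * u⁻¹ * (z * v⁻¹) * z⁻¹ := by group
    _ = u * v * u⁻¹ * (v⁻¹ * z) * z⁻¹ := by
        have : z * v⁻¹ = v⁻¹ * z := by
          calc z * v⁻¹ = v⁻¹ * (v * z) * v⁻¹ := by group
            _ = v⁻¹ * (z * v) * v⁻¹ := by rw [h2]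
            _ = v⁻¹ * z := by group
        rw [this]
    _ = u * v * u⁻¹ * v⁻¹ := by group

theorem L1 {T : Type*} [Group T] [Finite T] {W Z2 Z3 Z4 : Subgroup T} (c : Ctx T W Z2 Z3 Z4)
    (t : T) (ht : ∀ y ∈ Z2, t * y = y * t) (u : T) (hu : u ∈ W) :
    ⁅t * u * t⁻¹, u⁆ ∈ Z2 := by
  set v := t * u * t⁻¹ with hv
  have hvW : v ∈ W := c.nW.conj_mem u hu t
  set y0 := ⁅v, u⁆ with hy0
  have hy3 : y0 ∈ Z3 := c.cmW v hvW u hu
  -- for x ∈ W : x u x⁻¹ = z u with z central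
  have hconj : ∀ x ∈ W, ∀ w ∈ W, ⁅x * u * x⁻¹, w⁆ = ⁅u, w⁆ := by
    intro x hx w hw
    have hz : ⁅x, u⁆ ∈ Z3 := c.cmW x hx u hu
    have e : x * u * x⁻¹ = ⁅x, u⁆ * u := by rw [commutatorElement_def]; group
    rw [e]
    exact l1_cen _ _ _ (c.cen3 u hu _ hz).symm (c.cen3 w hw _ hz).symm
  have stepC : t ∈ W → y0 = 1 := by
    intro htW
    rw [hy0, hv, hconj t htW u hu]
    simp
  have stepA : t * y0 = y0 * t := by
    have e1 : t * y0 * t⁻¹ = ⁅(t * t) * u * (t * t)⁻¹, v⁆ := by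
      rw [hy0, hv, commutatorElement_def, commutatorElement_def]; group
    rw [hconj (t * t) (M1 c t t ht ht).1 v hvW] at e1
    have e2 : ⁅u, v⁆ = y0 := by
      have : ⁅u, v⁆ = y0⁻¹ := by rw [hy0, commutatorElement_inv]
      rw [this]
      exact inv_eq_of_mul_eq_one_right (c.el3 y0 hy3)
    rw [e2] at e1
    calc t * y0 = (t * y0 * t⁻¹) * t := by group
      _ = y0 * t := by rw [e1]
  by_contra hy2
  have htW : t ∈ W := by
    apply c.memW
    intro y hy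
    by_cases hyZ : y ∈ Z2
    · exact ht y hyZ
    · have hb : y0⁻¹ * y ∈ Z2 := by
        rw [half_two_iff c.r23 (Z3.inv_mem hy3) hy, inv_mem_iff]
        simp [hy2, hyZ]
      have e := ht _ hb
      calc t * y = (t * y0) * (y0⁻¹ * y) := by group
        _ = (y0 * t) * (y0⁻¹ * y) := by rw [stepA]
        _ = y0 * (t * (y0⁻¹ * y)) := by group
        _ = y0 * ((y0⁻¹ * y) * t) := by rw [e]
        _ = y * t := by group
  exact hy2 (by rw [stepC htW]; exact Z2.one_mem)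

end Cfsg.Agent.Lib.Helper27.T14
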