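import Cfsg.Agent.Lib.Helper27.T14.Defs2

namespace Cfsg.Agent.Lib.Helper27.T14
open Subgroup
open scoped commutatorElement

theorem m1_conj {T : Type*} [Group T] {W Z2 Z3 Z4 : Subgroup T} (c : Ctx T W Z2 Z3 Z4)
    (t y : T) (hy : y ∈ Z3) : ∃ a ∈ Z2, t * y * t⁻¹ = y * a := by
  refine ⟨⁅y⁻¹, t⁆, c.act3 _ (Z3.inv_mem hy) t, ?_⟩
  rw [commutatorElement_def]; group

theorem M1 {T : Type*} [Group T] [Finite T] {W Z2 Z3 Z4 : Subgroup T} (c : Ctx T W Z2 Z3 Z4)
    (t t' : T) (ht : ∀ y ∈ Z2, t * y = y * t) (ht' : ∀ y ∈ Z2, t' * y = y * t') :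
    t * t ∈ W ∧ ⁅t, t'⁆ ∈ W := by
  constructor
  · apply c.memW
    intro y hy
    obtain ⟨a, ha, e⟩ := m1_conj c t y hy
    have e' : t * y = y * a * t := by
      calc t * y = (t * y * t⁻¹) * t := by group
        _ = y * a * t := by rw [e]
    calc t * t * y = t * (t * y) := by group
      _ = t * (y * a * t) := by rw [e']
      _ = (t * y) * a * t := by group
      _ = (y * a * t) * a * t := by rw [e']
      _ = y * a * (t * a) * t := by group
      _ = y * a * (a * t) * t := by rw [ht a ha]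
      _ = y * (a * a) * (t * t) := by group
      _ = y * (t * t) := by rw [c.el3 a (c.le23 ha), mul_one]
  · have key : ∀ y ∈ Z3, (t * t') * y * (t * t')⁻¹ = (t' * t) * y * (t' * t)⁻¹ := by
      intro y hy
      obtain ⟨a, ha, e⟩ := m1_conj c t y hy
      obtain ⟨a', ha', e'⟩ := m1_conj c t' y hy
      have c1 : t * a' * t⁻¹ = a' := by rw [ht a' ha']; group
      have c2 : t' * a * t'⁻¹ = a := by rw [ht' a ha]; group
      have c3 : a * a' = a' * a := c.cen3 a (c.le3W (c.le23 ha)) a' (c.le23 ha')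
      calc (t * t') * y * (t * t')⁻¹ = t * (t' * y * t'⁻¹) * t⁻¹ := by group
        _ = t * (y * a') * t⁻¹ := by rw [e']
        _ = (t * y * t⁻¹) * (t * a' * t⁻¹) := by group
        _ = y * a * a' := by rw [e, c1]
        _ = y * (a * a') := by group
        _ = y * (a' * a) := by rw [c3]
        _ = (t' * y * t'⁻¹) * (t' * a * t'⁻¹) := by rw [e', c2]; group
        _ = t' * (y * a) * t'⁻¹ := by group
        _ = t' * (t * y * t⁻¹) * t'⁻¹ := by rw [e]
        _ = (t' * t) * y * (t' * t)⁻¹ := by group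
    apply c.memW
    intro y hy
    have hy' : (t' * t)⁻¹ * y * (t' * t)⁻¹⁻¹ ∈ Z3 := c.n3.conj_mem y hy _
    have := key _ hy'
    rw [commutatorElement_def]
    have e1 : (t' * t) * ((t' * t)⁻¹ * y * (t' * t)⁻¹⁻¹) * (t' * t)⁻¹ = y := by group
    rw [e1] at this
    calc t * t' * t⁻¹ * t'⁻¹ * y
        = ((t * t') * ((t' * t)⁻¹ * y * (t' * t)⁻¹⁻¹) * (t * t')⁻¹) * (t * t' * t⁻¹ * t'⁻¹) := by
          group
      _ = y * (t * t' * t⁻¹ * t'⁻¹) := by rw [this]

end Cfsg.Agent.Lib.Helper27.T14
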