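import Cfsg.Agent.Lib.Helper27.T14.Defs2
import Cfsg.Agent.Lib.Helper27.T14.M1

namespace Cfsg.Agent.Lib.Helper27.T14
open Subgroup
open scoped commutatorElement

/- PROOF SWP. Mod Z3, W/Z3 is abelian and W acts trivially on it. dl s (dl z v) = v v^z v^s v^(sz), dl z (dl s v) = v v^s v^z v^(zs) (v^d = d v d^-1); zs = [z,s] sz with [z,s] in W (M1).
-/
/-- SWP (uses M1) -/
theorem SWP {T : Type*} [Group T] [Finite T] {W Z2 Z3 Z4 : Subgroup T} (c : Ctx T W Z2 Z3 Z4)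
    (z s v : T) (hz : ∀ y ∈ Z2, z * y = y * z) (hs : ∀ y ∈ Z2, s * y = y * s) (hv : v ∈ W) :
    (dl s (dl z v))⁻¹ * dl z (dl s v) ∈ Z3 := by
  haveI := c.n3
  haveI := c.nW
  have hcomm : ∀ a ∈ W, ∀ b ∈ W,
      (a : T ⧸ Z3) * (b : T ⧸ Z3) = (b : T ⧸ Z3) * (a : T ⧸ Z3) := by
    intro a ha b hb
    have h := c.cmW a ha b hb
    rw [← QuotientGroup.eq_one_iff, commutatorElement_def] at h
    simp only [QuotientGroup.mk_mul, QuotientGroup.mk_inv] at h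
    calc (a : T ⧸ Z3) * b
        = ((a : T ⧸ Z3) * b * (a : T ⧸ Z3)⁻¹ * (b : T ⧸ Z3)⁻¹) * (b * a) := by group
      _ = b * a := by rw [h, one_mul]
  have hk : ⁅z, s⁆ ∈ W := (M1 c z s hz hs).2
  have h2 : z * v * z⁻¹ ∈ W := c.nW.conj_mem v hv z
  have h3 : s * v * s⁻¹ ∈ W := c.nW.conj_mem v hv s
  have h4 : s * (z * v * z⁻¹) * s⁻¹ ∈ W := c.nW.conj_mem _ h2 s
  rw [← QuotientGroup.eq]
  unfold dl
  have e23 := hcomm _ h2 _ h3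
  have ek := hcomm _ hk _ h4
  rw [commutatorElement_def] at ek
  simp only [QuotientGroup.mk_mul, QuotientGroup.mk_inv] at e23 ek ⊢
  generalize (v : T ⧸ Z3) = V at *
  generalize (s : T ⧸ Z3) = S at *
  generalize (z : T ⧸ Z3) = Zz at *
  have e5 : Zz * (S * V * S⁻¹) * Zz⁻¹ = S * (Zz * V * Zz⁻¹) * S⁻¹ := by
    calc Zz * (S * V * S⁻¹) * Zz⁻¹
        = ((Zz * S * Zz⁻¹ * S⁻¹) * (S * (Zz * V * Zz⁻¹) * S⁻¹)) * (Zz * S * Zz⁻¹ * S⁻¹)⁻¹ := by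
          group
      _ = ((S * (Zz * V * Zz⁻¹) * S⁻¹) * (Zz * S * Zz⁻¹ * S⁻¹)) * (Zz * S * Zz⁻¹ * S⁻¹)⁻¹ := by
          rw [ek]
      _ = _ := by group
  calc V * (Zz * V * Zz⁻¹) * (S * (V * (Zz * V * Zz⁻¹)) * S⁻¹)
      = V * ((Zz * V * Zz⁻¹) * (S * V * S⁻¹)) * (S * (Zz * V * Zz⁻¹) * S⁻¹) := by group
    _ = V * ((S * V * S⁻¹) * (Zz * V * Zz⁻¹)) * (Zz * (S * V * S⁻¹) * Zz⁻¹) := by rw [e23, e5]
    _ = _ := by group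

end Cfsg.Agent.Lib.Helper27.T14
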