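import Cfsg.Agent.Lib.Helper27.T14.Defs2
import Cfsg.Agent.Lib.Helper27.T14.L1
import Cfsg.Agent.Lib.Helper27.T14.M1
import Cfsg.Agent.Lib.Helper27.T14.SWP

namespace Cfsg.Agent.Lib.Helper27.T14
open Subgroup
open scoped commutatorElement

/- PROOF FIN5a. u = dl s v1. W has class 2 with W' <= Z3 central elementary: (xy)^2 = x^2 y^2 [y,x] for x,y in W. (i) (dl t a)^2 in Z2 for a in W, t centralizing Z2:
   = a^2 (t a^2 t^-1) [t a t^-1, a]; a^2 =: w in Z3, t w t^-1 = w mod Z2 (act3), w*w = 1; [tat^-1,a] in Z2 by L1. So u^2 in Z2 and k^2 in Z2 for k in K (k = dl z a * y, y in Z3 central, y^2=1).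
   (ii) [u,k] in Z2: [u,k] = [u, dl z a] = [u,a][u, z a z^-1], and [u, z a z^-1] = z [z^-1 u z, a] z^-1 = [z^-1 u z, a] mod Z2 (act3); so [u,k] = [u * z^-1 u z, a] mod Z2;
   z^-1 u z = z u z^-1 mod Z3 (z*z in W, M1), so u * z^-1 u z = dl z u = dl s (dl z v1) (SWP) = e mod Z3, and e, Z3 are central in W: the commutator is 1.
   (iii) K is normal in W (Z3 <= K), so every x in K ⊔ zpowers u is k u^i; u^2 in Z2 <= K; x = k or k u up to K: (k u)^2 = k^2 u^2 [u,k] in Z2.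
-/

theorem fin5a_comm_mul_right {G : Type*} [Group G] (x a b : G) :
    ⁅x, a * b⁆ = ⁅x, a⁆ * (a * ⁅x, b⁆ * a⁻¹) := by
  simp only [commutatorElement_def]; group

theorem fin5a_comm_mul_left {G : Type*} [Group G] (x x' a : G) :
    ⁅x * x', a⁆ = (x * ⁅x', a⁆ * x⁻¹) * ⁅x, a⁆ := by
  simp only [commutatorElement_def]; group

theorem fin5a_comm_conj {G : Type*} [Group G] (u z a : G) :
    ⁅u, z * a * z⁻¹⁆ = z * ⁅z⁻¹ * u * z, a⁆ * z⁻¹ := by
  simp only [commutatorElement_def]; group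

/-- a set of elements that commute and square to `1` modulo `N` generates a subgroup all of whose
squares lie in `N`. -/
theorem fin5a_gen {G : Type*} [Group G] (N : Subgroup G) [N.Normal] (A : Set G)
    (hsq : ∀ a ∈ A, a ^ 2 ∈ N) (hc : ∀ a ∈ A, ∀ b ∈ A, ⁅a, b⁆ ∈ N) :
    ∀ x ∈ Subgroup.closure A, x ^ 2 ∈ N := by
  intro x hx
  let π := QuotientGroup.mk' N
  have hcomm : ∀ p ∈ π '' A, ∀ q ∈ π '' A, p * q = q * p := by
    rintro _ ⟨a, ha, rfl⟩ _ ⟨b, hb, rfl⟩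
    have h1 : π ⁅a, b⁆ = 1 := (QuotientGroup.eq_one_iff _).2 (hc a ha b hb)
    rw [map_commutatorElement, commutatorElement_eq_one_iff_mul_comm] at h1
    exact h1
  have hsq' : ∀ p ∈ π '' A, p ^ 2 = 1 := by
    rintro _ ⟨a, ha, rfl⟩
    rw [← map_pow]
    exact (QuotientGroup.eq_one_iff _).2 (hsq a ha)
  have hcl : ∀ p ∈ closure (π '' A), ∀ q ∈ closure (π '' A), p * q = q * p := by
    intro p hp q hq
    have hI := Subgroup.isMulCommutative_closure hcomm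
    have := hI.is_comm.comm (⟨p, hp⟩ : closure (π '' A)) ⟨q, hq⟩
    exact congrArg Subtype.val this
  have hall : ∀ p ∈ closure (π '' A), p ^ 2 = 1 := by
    intro p hp
    induction hp using Subgroup.closure_induction with
    | mem p hp => exact hsq' p hp
    | one => simp
    | mul p q hp hq ihp ihq =>
      rw [(show Commute p q from hcl p hp q hq).mul_pow, ihp, ihq, one_mul]
    | inv p hp ih => rw [inv_pow, ih, inv_one]
  have hx' : π x ∈ closure (π '' A) := by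
    rw [← MonoidHom.map_closure]
    exact Subgroup.mem_map_of_mem _ hx
  have := hall _ hx'
  rw [← map_pow] at this
  exact (QuotientGroup.eq_one_iff _).1 this

theorem fin5a_sq_mul {T : Type*} [Group T] {W Z2 Z3 Z4 : Subgroup T} (c : Ctx T W Z2 Z3 Z4)
    (x y : T) (hx : x ∈ W) (hy : y ∈ W) : (x * y) ^ 2 = ⁅y, x⁆ * (x ^ 2 * y ^ 2) := by
  have h3 := c.cmW y hy x hx
  have e1 : x * ⁅y, x⁆ = ⁅y, x⁆ * x := c.cen3 x hx _ h3
  calc (x * y) ^ 2 = (x * ⁅y, x⁆) * x * y * y := by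
        simp only [commutatorElement_def, pow_two]; group
    _ = (⁅y, x⁆ * x) * x * y * y := by rw [e1]
    _ = ⁅y, x⁆ * (x ^ 2 * y ^ 2) := by simp only [pow_two, mul_assoc]

theorem fin5a_dl_mem {T : Type*} [Group T] {W Z2 Z3 Z4 : Subgroup T} (c : Ctx T W Z2 Z3 Z4)
    (t a : T) (ha : a ∈ W) : dl t a ∈ W :=
  W.mul_mem ha (c.nW.conj_mem a ha t)

theorem fin5a_dl_sq {T : Type*} [Group T] [Finite T] {W Z2 Z3 Z4 : Subgroup T}
    (c : Ctx T W Z2 Z3 Z4) (t a : T) (ht : ∀ y ∈ Z2, t * y = y * t) (ha : a ∈ W) :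
    (dl t a) ^ 2 ∈ Z2 := by
  have hb : t * a * t⁻¹ ∈ W := c.nW.conj_mem a ha t
  unfold dl
  rw [fin5a_sq_mul c a _ ha hb]
  have h1 : ⁅t * a * t⁻¹, a⁆ ∈ Z2 := L1 c t ht a ha
  have hw : a ^ 2 ∈ Z3 := c.sqW a ha
  have h2 : a ^ 2 * (t * a * t⁻¹) ^ 2 ∈ Z2 := by
    have e : a ^ 2 * (t * a * t⁻¹) ^ 2 = (a ^ 2 * a ^ 2) * ⁅(a ^ 2)⁻¹, t⁆ := by
      rw [commutatorElement_def, conj_pow]
      generalize a ^ 2 = w
      group
    rw [e, c.el3 _ hw, one_mul]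
    exact c.act3 _ (Z3.inv_mem hw) t
  exact Z2.mul_mem h1 h2

theorem fin5a_K_sq {T : Type*} [Group T] [Finite T] {W Z2 Z3 Z4 : Subgroup T}
    (c : Ctx T W Z2 Z3 Z4) (z : T) (hz : ∀ y ∈ Z2, z * y = y * z) (k a : T) (ha : a ∈ W)
    (hy0 : (dl z a)⁻¹ * k ∈ Z3) : k ^ 2 ∈ Z2 := by
  obtain ⟨y, hy, rfl⟩ : ∃ y ∈ Z3, k = dl z a * y := ⟨_, hy0, by group⟩
  have hd : dl z a ∈ W := fin5a_dl_mem c z a ha
  have e : (dl z a * y) ^ 2 = (dl z a) ^ 2 * (y * y) := by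
    rw [pow_two, pow_two]
    calc dl z a * y * (dl z a * y) = dl z a * (y * dl z a) * y := by group
      _ = dl z a * (dl z a * y) * y := by rw [c.cen3 _ hd y hy]
      _ = dl z a * dl z a * (y * y) := by group
  rw [e, c.el3 y hy, mul_one]
  exact fin5a_dl_sq c z a hz ha

theorem fin5a_conj_fix {T : Type*} [Group T] {W Z2 Z3 Z4 : Subgroup T} (c : Ctx T W Z2 Z3 Z4)
    (w y : T) (hw : w ∈ W) (hy : y ∈ Z3) : w * y * w⁻¹ = y := by
  rw [c.cen3 w hw y hy]; group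

theorem fin5a_comm {T : Type*} [Group T] [Finite T] {W Z2 Z3 Z4 : Subgroup T}
    (c : Ctx T W Z2 Z3 Z4)
    (z s v1 e : T) (hz : ∀ y ∈ Z2, z * y = y * z) (hs : ∀ y ∈ Z2, s * y = y * s)
    (hv1 : v1 ∈ W) (hec : ∀ w ∈ W, e * w = w * e)
    (hev : (dl s (dl z v1))⁻¹ * e ∈ Z3) (k a : T) (ha : a ∈ W)
    (hy0 : (dl z a)⁻¹ * k ∈ Z3) : ⁅dl s v1, k⁆ ∈ Z2 := by
  obtain ⟨y, hy, rfl⟩ : ∃ y ∈ Z3, k = dl z a * y := ⟨_, hy0, by group⟩
  set u := dl s v1 with hu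
  have huW : u ∈ W := fin5a_dl_mem c s v1 hv1
  have hd : dl z a ∈ W := fin5a_dl_mem c z a ha
  have ha' : z * a * z⁻¹ ∈ W := c.nW.conj_mem a ha z
  have hu' : z⁻¹ * u * z ∈ W := by
    have := c.nW.conj_mem u huW z⁻¹
    rwa [inv_inv] at this
  -- step 1
  have s1 : ⁅u, dl z a * y⁆ = ⁅u, dl z a⁆ := by
    rw [fin5a_comm_mul_right]
    have : ⁅u, y⁆ = 1 := by
      rw [commutatorElement_eq_one_iff_mul_comm]
      exact c.cen3 u huW y hy
    rw [this]; group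
  -- step 2
  have s2 : ⁅u, dl z a⁆ = ⁅u, a⁆ * ⁅u, z * a * z⁻¹⁆ := by
    unfold dl
    rw [fin5a_comm_mul_right, fin5a_conj_fix c a _ ha (c.cmW u huW _ ha')]
  -- step 3
  set c0 := ⁅z⁻¹ * u * z, a⁆ with hc0
  have hc03 : c0 ∈ Z3 := c.cmW _ hu' a ha
  have s3 : ⁅u, z * a * z⁻¹⁆ = c0 * ⁅c0⁻¹, z⁆ := by
    rw [fin5a_comm_conj, ← hc0]
    simp only [commutatorElement_def]; group
  -- step 5 : u * u' is central in W
  have hzz : z * z ∈ W := (M1 c z z hz hz).1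
  have hb : z * u * z⁻¹ ∈ W := c.nW.conj_mem u huW z
  have t1 : (dl z u)⁻¹ * (u * (z⁻¹ * u * z)) ∈ Z3 := by
    have e1 : (dl z u)⁻¹ * (u * (z⁻¹ * u * z)) = ⁅(z * u * z⁻¹)⁻¹, (z * z)⁻¹⁆ := by
      unfold dl
      simp only [commutatorElement_def]; group
    rw [e1]
    exact c.cmW _ (W.inv_mem hb) _ (W.inv_mem hzz)
  have t2 : (dl s (dl z v1))⁻¹ * dl z u ∈ Z3 := SWP c z s v1 hz hs hv1
  have t3 : e⁻¹ * (u * (z⁻¹ * u * z)) ∈ Z3 := by
    have e2 : e⁻¹ * (u * (z⁻¹ * u * z)) =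
        ((dl s (dl z v1))⁻¹ * e)⁻¹ * ((dl s (dl z v1))⁻¹ * dl z u) *
          ((dl z u)⁻¹ * (u * (z⁻¹ * u * z))) := by group
    rw [e2]
    exact Z3.mul_mem (Z3.mul_mem (Z3.inv_mem hev) t2) t1
  have s5 : ⁅u * (z⁻¹ * u * z), a⁆ = 1 := by
    obtain ⟨y', hy', e3⟩ : ∃ y' ∈ Z3, u * (z⁻¹ * u * z) = e * y' := ⟨_, t3, by group⟩
    rw [e3, commutatorElement_eq_one_iff_mul_comm]
    calc e * y' * a = e * (y' * a) := by group
      _ = e * (a * y') := by rw [c.cen3 a ha y' hy']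
      _ = (e * a) * y' := by group
      _ = (a * e) * y' := by rw [hec a ha]
      _ = a * (e * y') := by group
  -- step 4
  have s4 : ⁅u, a⁆ * c0 = 1 := by
    rw [fin5a_comm_mul_left, ← hc0, fin5a_conj_fix c u _ huW hc03] at s5
    have hua : ⁅u, a⁆ ∈ Z3 := c.cmW u huW a ha
    rw [c.cen3 _ (c.le3W hua) c0 hc03]
    exact s5
  rw [s1, s2, s3, ← mul_assoc, s4, one_mul]
  exact c.act3 _ (Z3.inv_mem hc03) z

/-- FIN5a (uses L1 M1 SWP) -/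
theorem FIN5a {T : Type*} [Group T] [Finite T] {W Z2 Z3 Z4 : Subgroup T} (c : Ctx T W Z2 Z3 Z4)
    (z s v1 e : T) (hz : ∀ y ∈ Z2, z * y = y * z) (hs : ∀ y ∈ Z2, s * y = y * s)
    (hv1 : v1 ∈ W) (hec : ∀ w ∈ W, e * w = w * e)
    (hev : (dl s (dl z v1))⁻¹ * e ∈ Z3)
    (K : Subgroup T) (hK3 : Z3 ≤ K) (hKW : K ≤ W)
    (hKz : ∀ k ∈ K, ∃ a ∈ W, (dl z a)⁻¹ * k ∈ Z3) :
    ∀ x ∈ K ⊔ Subgroup.zpowers (dl s v1), x ^ 2 ∈ Z2 := by
  intro x hx
  have hE : K ⊔ zpowers (dl s v1) = closure ((K : Set T) ∪ {dl s v1}) := by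
    rw [Subgroup.closure_union, Subgroup.closure_eq, Subgroup.zpowers_eq_closure]
  rw [hE] at hx
  have := c.n2
  have hKsq : ∀ k ∈ K, k ^ 2 ∈ Z2 := by
    intro k hk
    obtain ⟨a, ha, hy⟩ := hKz k hk
    exact fin5a_K_sq c z hz k a ha hy
  have huK : ∀ k ∈ K, ⁅dl s v1, k⁆ ∈ Z2 := by
    intro k hk
    obtain ⟨a, ha, hy⟩ := hKz k hk
    exact fin5a_comm c z s v1 e hz hs hv1 hec hev k a ha hy
  refine fin5a_gen Z2 _ ?_ ?_ x hx
  · rintro a (ha | ha)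
    · exact hKsq a ha
    · rw [Set.mem_singleton_iff] at ha
      rw [ha]
      exact fin5a_dl_sq c s v1 hs hv1
  · rintro a (ha | ha) b (hb | hb)
    · have h1 := hKsq (a * b) (K.mul_mem ha hb)
      have h2 := hKsq (b⁻¹ * a⁻¹ * b) (K.mul_mem (K.mul_mem (K.inv_mem hb) (K.inv_mem ha)) hb)
      have h3 := hKsq b⁻¹ (K.inv_mem hb)
      have : ⁅a, b⁆ = (a * b) ^ 2 * (b⁻¹ * a⁻¹ * b) ^ 2 * (b⁻¹) ^ 2 := by
        simp only [pow_two, commutatorElement_def]; group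
      rw [this]
      exact Z2.mul_mem (Z2.mul_mem h1 h2) h3
    · rw [Set.mem_singleton_iff] at hb
      rw [hb, ← commutatorElement_inv]
      exact Z2.inv_mem (huK a ha)
    · rw [Set.mem_singleton_iff] at ha
      rw [ha]
      exact huK b hb
    · rw [Set.mem_singleton_iff] at ha hb
      rw [ha, hb, commutatorElement_self]
      exact Z2.one_mem

end Cfsg.Agent.Lib.Helper27.T14
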