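import Cfsg.Agent.Lib.Helper27.T14.Defs2
import Cfsg.Agent.Lib.Helper27.T14.FIN5a
import Cfsg.Agent.Lib.Helper27.T14.HPL
import Cfsg.Agent.Lib.Helper27.T14.SWP

namespace Cfsg.Agent.Lib.Helper27.T14
open Subgroup
open scoped commutatorElement

/- PROOF FIN5. u = dl s v1 in W. u ∉ K: else [u,z] in Z3, so z u z^-1 = u mod Z3, dl z u = u^2 = 1 mod Z3 (sqW), and by SWP + hev e in Z3. u^2 in Z3 <= K, K normal in W
   => card (K ⊔ zpowers u) = 2^8 (Helper1.PGroup.card_sup_zpowers_of_pow_mem). Take y in Z3 \ Z2 (cards). HPL (E = K ⊔ zpowers u, N = Z2, FIN5a, y): U, relIndex 2, y ∉ U, card U = 2^7,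
   U <= W, U.relIndex W = 2^11/2^7 = 16; c.hd gives Z3 <= U, contradiction.
-/
/-- FIN5 (uses FIN5a HPL SWP) -/
theorem FIN5 {T : Type*} [Group T] [Finite T] {W Z2 Z3 Z4 : Subgroup T} (c : Ctx T W Z2 Z3 Z4)
    (z s v1 e : T) (hz : ∀ y ∈ Z2, z * y = y * z) (hs : ∀ y ∈ Z2, s * y = y * s)
    (hv1 : v1 ∈ W) (he3 : e ∉ Z3) (hec : ∀ w ∈ W, e * w = w * e)
    (hev : (dl s (dl z v1))⁻¹ * e ∈ Z3)
    (K : Subgroup T) (hK3 : Z3 ≤ K) (hKW : K ≤ W) (hKc : Nat.card K = 2 ^ 7)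
    (hKz : ∀ k ∈ K, ∃ a ∈ W, (dl z a)⁻¹ * k ∈ Z3) (hKf : ∀ k ∈ K, ⁅k, z⁆ ∈ Z3) : False := by
  set u := dl s v1 with hu
  have huW : u ∈ W := fin5a_dl_mem c s v1 hv1
  -- u ∉ K
  have huK : u ∉ K := by
    intro h
    have h1 : ⁅u, z⁆ ∈ Z3 := hKf u h
    have h2 : dl z u ∈ Z3 := by
      have e1 : dl z u = (u * ⁅u, z⁆⁻¹ * u⁻¹) * u ^ 2 := by
        unfold dl
        simp only [commutatorElement_def, pow_two]; group
      rw [e1]
      exact Z3.mul_mem (c.n3.conj_mem _ (Z3.inv_mem h1) u) (c.sqW u huW)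
    have h3 : (dl s (dl z v1))⁻¹ * dl z u ∈ Z3 := SWP c z s v1 hz hs hv1
    apply he3
    have e2 : e = dl z u * ((dl s (dl z v1))⁻¹ * dl z u)⁻¹ * ((dl s (dl z v1))⁻¹ * e) := by group
    rw [e2]
    exact Z3.mul_mem (Z3.mul_mem h2 (Z3.inv_mem h3)) hev
  set E := K ⊔ Subgroup.zpowers u with hE
  have hKE : K ≤ E := le_sup_left
  have huE : u ∈ E := (le_sup_right : Subgroup.zpowers u ≤ E) (Subgroup.mem_zpowers u)
  have hEW : E ≤ W := sup_le hKW (by rw [Subgroup.zpowers_le]; exact huW)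
  have hsq : ∀ x ∈ E, x ^ 2 ∈ Z2 := FIN5a c z s v1 e hz hs hv1 hec hev K hK3 hKW hKz
  -- card E ≥ 2 ^ 8
  have hcE : 2 ^ 8 ≤ Nat.card E := by
    obtain ⟨m, hm⟩ := Subgroup.card_dvd_of_le hKE
    have hpos : 0 < Nat.card E := Nat.card_pos
    have hne : Nat.card E ≠ Nat.card K := by
      intro h
      have : K = E := Subgroup.eq_of_le_of_card_ge hKE h.le
      exact huK (this ▸ huE)
    rw [hKc] at hm hne
    have : 2 ≤ m := by
      rcases m with _ | _ | m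
      · omega
      · omega
      · omega
    omega
  -- y ∈ Z3 \ Z2
  obtain ⟨y, hy3, hy2⟩ : ∃ y ∈ Z3, y ∉ Z2 := by
    by_contra hcon
    push Not at hcon
    have hle : Z3 ≤ Z2 := hcon
    have := Subgroup.card_le_of_le hle
    rw [c.c2, c.c3] at this
    omega
  obtain ⟨U, hNU, hUE, hyU, hUr⟩ := HPL E Z2 ((c.le23.trans hK3).trans hKE) hsq y (hKE (hK3 hy3)) hy2
  have h1 := card_mul_relIndex' hUE
  have h2 := card_mul_relIndex' (hUE.trans hEW)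
  rw [hUr] at h1
  rw [c.cW] at h2
  have h3 : U.relIndex W ≤ 16 := by
    by_contra hcon
    push Not at hcon
    have h4 : 2 ^ 7 ≤ Nat.card U := by omega
    have : 2 ^ 7 * 17 ≤ Nat.card U * U.relIndex W := Nat.mul_le_mul h4 hcon
    omega
  exact hyU (c.hd U (hUE.trans hEW) h3 hy3)

end Cfsg.Agent.Lib.Helper27.T14
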