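import Cfsg.Agent.Lib.Helper27.T14.FIXSTEP
import Cfsg.Agent.Lib.Helper3.PGroup

namespace Cfsg.Agent.Lib.Helper27.T14
open Subgroup
open scoped commutatorElement

theorem fix_exists_max {G : Type*} [Group G] [Finite G] (H₁ H₂ : Subgroup G) (h12 : H₁ < H₂)
    (h2 : IsPGroup 2 H₂) : ∃ H' : Subgroup G, H₁ ≤ H' ∧ H' ≤ H₂ ∧ H'.relIndex H₂ = 2 := by
  haveI : Fact (Nat.Prime 2) := ⟨Nat.prime_two⟩
  have hne : H₁.subgroupOf H₂ ≠ ⊤ := by
    intro h
    rw [Subgroup.subgroupOf_eq_top] at h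
    exact absurd h12.le (fun _ => h12.not_ge h)
  obtain ⟨M, hM, hle⟩ := (eq_top_or_exists_le_coatom (H₁.subgroupOf H₂)).resolve_left hne
  have hidx := Cfsg.Agent.Lib.Helper3.coatom_index h2 hM
  refine ⟨M.map H₂.subtype, ?_, ?_, ?_⟩
  · intro x hx
    exact ⟨⟨x, h12.le hx⟩, hle (Subgroup.mem_subgroupOf.2 hx), rfl⟩
  · rintro _ ⟨x, -, rfl⟩
    exact x.2
  · rw [Subgroup.relIndex, Subgroup.subgroupOf,
      Subgroup.comap_map_eq_self_of_injective H₂.subtype_injective, hidx]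

theorem FIX {G : Type*} [Group G] [Finite G] (N M : Subgroup G) [N.Normal] [M.Normal]
    (hNM : N ≤ M) (hsq : ∀ x ∈ M, x ^ 2 ∈ N) (H₁ H₂ : Subgroup G) (h12 : H₁ ≤ H₂)
    (h2 : IsPGroup 2 H₂) :
    N.relIndex (fixS N M H₁) ≤ (N.relIndex (fixS N M H₂)) ^ (H₁.relIndex H₂) := by
  induction hn : Nat.card H₂ using Nat.strong_induction_on generalizing H₂ with
  | _ n ih =>
    rcases eq_or_lt_of_le h12 with rfl | hlt
    · simp
    · obtain ⟨H', h1', h'2, hidx⟩ := fix_exists_max H₁ H₂ hlt h2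
      have hcard : Nat.card H' < n := by
        have := card_mul_relIndex' h'2
        rw [hidx, hn] at this
        have hp : 0 < Nat.card H' := Nat.card_pos
        omega
      have hp' : IsPGroup 2 H' := h2.to_le h'2
      have i1 := ih _ hcard H' h1' hp' rfl
      have i2 := FIXSTEP N M hNM hsq H' H₂ h'2 hidx
      have e : H₁.relIndex H₂ = H₁.relIndex H' * 2 := by
        rw [← hidx, Subgroup.relIndex_mul_relIndex H₁ H' H₂ h1' h'2]
      calc N.relIndex (fixS N M H₁) ≤ (N.relIndex (fixS N M H')) ^ (H₁.relIndex H') := i1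
        _ ≤ ((N.relIndex (fixS N M H₂)) ^ 2) ^ (H₁.relIndex H') := Nat.pow_le_pow_left i2 _
        _ = _ := by rw [e, ← pow_mul, mul_comm]

end Cfsg.Agent.Lib.Helper27.T14
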