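import Cfsg.Agent.Lib.Helper27.T14.HPL
import Cfsg.Agent.Lib.Helper3.Frattini

namespace Cfsg.Agent.Lib.Helper27.T14
open Subgroup
open scoped commutatorElement

theorem FRAT {T : Type*} [Group T] [Finite T] (W : Subgroup T) (hW : IsPGroup 2 W) :
    (frattini ↥W).map W.subtype = sq W := by
  haveI : Fact (Nat.Prime 2) := ⟨Nat.prime_two⟩
  apply le_antisymm
  · rw [Subgroup.map_le_iff_le_comap]
    refine Cfsg.Agent.Lib.Helper3.frattini_le_of_elementary_quotient Nat.prime_two _ ?_ ?_
    · rw [commutator_def, Subgroup.commutator_le]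
      intro a _ b _
      rw [Subgroup.mem_comap, commutatorElement_def]
      simp only [Subgroup.subtype_apply, Subgroup.coe_mul, Subgroup.coe_inv]
      exact hpl_comm W (sq W) (fun x hx => sq_mem_sq hx) a b a.2 b.2
    · intro x
      rw [Subgroup.mem_comap]
      simp only [Subgroup.subtype_apply, Subgroup.coe_pow]
      exact sq_mem_sq x.2
  · rw [sq_le_iff]
    intro x hx
    exact ⟨⟨x, hx⟩ ^ 2, Cfsg.Agent.Lib.Helper3.pow_p_mem_frattini hW ⟨x, hx⟩, rfl⟩

theorem MKH {T : Type*} [Group T] [Finite T]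
    (hT : IsPGroup 2 T) (ha : 2 ^ 14 ≤ Nat.card T)
    (hb : Nat.card ↥(Subgroup.upperCentralSeries T 4) = 16)
    (W : Subgroup T)
    (hW : W = Subgroup.centralizer ((Subgroup.upperCentralSeries T 3 : Subgroup T) : Set T))
    (hc : Nat.card ↥(frattini ↥W) ≤ 8) (hd : ∀ U : Subgroup ↥W, U.index ≤ 16 → frattini ↥W ≤ U) :
    Hyp T W := by
  have hF := FRAT W (hT.to_subgroup W)
  refine ⟨hT, ha, hb, hW, ?_, ?_⟩
  · rw [← hF, Subgroup.card_map_of_injective W.subtype_injective]
    exact hc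
  · intro U hU hidx
    have := hd (U.subgroupOf W) hidx
    rw [← hF, Subgroup.map_le_iff_le_comap]
    exact this

end Cfsg.Agent.Lib.Helper27.T14
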