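import Mathlib
import Cfsg.Prelude.Def_Transfer

namespace Cfsg.Agent.Lib.Helper27.T14
open Subgroup
open scoped Pointwise

theorem NPC {G : Type*} [Group G] [Finite G] (T : Sylow 2 G)
    (h : ∀ φ : MulAut ↥(T : Subgroup G), Odd (orderOf φ) → φ = 1) :
    Cfsg.HasNormalPComplement 2 ↥(Subgroup.normalizer ((T : Subgroup G) : Set G)) := by
  haveI : Fact (Nat.Prime 2) := ⟨Nat.prime_two⟩
  set N := Subgroup.normalizer ((T : Subgroup G) : Set G) with hN
  let P : Sylow 2 ↥N := T.subtype Subgroup.le_normalizer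
  have hP : (P : Subgroup ↥N) = (T : Subgroup G).subgroupOf N := Sylow.coe_subtype _ _
  haveI : (P : Subgroup ↥N).Normal := by rw [hP]; exact Subgroup.normal_in_normalizer
  obtain ⟨K, hK⟩ := Subgroup.exists_left_complement'_of_coprime (N := (P : Subgroup ↥N))
    P.card_coprime_index
  refine ⟨P, K, ?_, hK⟩
  have hcen : ∀ k ∈ K, ∀ t ∈ (P : Subgroup ↥N), k * t = t * k := by
    intro k hk t ht
    have h1 : orderOf ((T : Subgroup G).normalizerMonoidHom k) ∣ Nat.card K :=
      (orderOf_map_dvd _ k).trans (Subgroup.orderOf_dvd_natCard K hk)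
    have h2 : ¬ 2 ∣ Nat.card K := by
      rw [← hK.index_eq_card]
      exact P.not_dvd_index
    have h3 : Odd (orderOf ((T : Subgroup G).normalizerMonoidHom k)) := by
      rw [← Nat.not_even_iff_odd, even_iff_two_dvd]
      exact fun h4 => h2 (h4.trans h1)
    have h5 : k ∈ ((T : Subgroup G).normalizerMonoidHom).ker := h _ h3
    rw [Subgroup.normalizerMonoidHom_ker, Subgroup.mem_subgroupOf,
      Subgroup.mem_centralizer_iff] at h5
    rw [hP, Subgroup.mem_subgroupOf] at ht
    exact Subtype.ext (h5 _ ht).symm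
  constructor
  intro k hk n
  have hn : n ∈ (K : Set ↥N) * ((P : Subgroup ↥N) : Set ↥N) := by
    rw [hK.mul_eq]; exact Set.mem_univ n
  obtain ⟨k', hk', t, ht, rfl⟩ := hn
  have e : k' * t * k * (k' * t)⁻¹ = k' * k * k'⁻¹ := by
    have := hcen k hk t ht
    calc k' * t * k * (k' * t)⁻¹ = k' * (t * k) * t⁻¹ * k'⁻¹ := by group
      _ = k' * (k * t) * t⁻¹ * k'⁻¹ := by rw [this]
      _ = k' * k * k'⁻¹ := by group
  rw [e]
  exact K.mul_mem (K.mul_mem hk' hk) (K.inv_mem hk')

end Cfsg.Agent.Lib.Helper27.T14
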