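import Cfsg.Agent.Lib.Helper27.T14.ODD4
import Cfsg.Agent.Lib.Helper27.T14.HALF

namespace Cfsg.Agent.Lib.Helper27.T14
open Subgroup

theorem char_mem_iff {T : Type*} [Group T] (H : Subgroup T) [hH : H.Characteristic] (φ : MulAut T)
    (x : T) : φ x ∈ H ↔ x ∈ H := by
  have := hH.fixed φ
  conv_rhs => rw [← this]
  rfl

theorem odd1_step {T : Type*} [Group T] [Finite T] (hT : IsPGroup 2 T) (φ : MulAut T) (m : ℕ)
    (hm : Odd m) (hφ : φ ^ m = 1) (H K : Subgroup T) [H.Characteristic] [K.Characteristic]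
    (hHK : H ≤ K) (hc : Nat.card K = 2 * Nat.card H) (hH : ∀ x ∈ H, φ x = x) :
    ∀ x ∈ K, φ x = x := by
  intro x hx
  by_cases hxH : x ∈ H
  · exact hH x hxH
  have hidx : H.relIndex K = 2 := by
    have := card_mul_relIndex' hHK
    rw [hc, mul_comm] at this
    exact Nat.eq_of_mul_eq_mul_right Nat.card_pos this
  refine ODD4 hT φ m hm hφ H hH x ?_
  rw [half_two_iff hidx (K.inv_mem hx) ((char_mem_iff K φ x).2 hx)]
  rw [char_mem_iff H φ x, inv_mem_iff]

theorem ODD1 {T : Type*} [Group T] [Finite T] (hT : IsPGroup 2 T)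
    (h1 : Nat.card ↥(Subgroup.upperCentralSeries T 1) = 2)
    (h2 : Nat.card ↥(Subgroup.upperCentralSeries T 2) = 4)
    (h3 : Nat.card ↥(Subgroup.upperCentralSeries T 3) = 8)
    (h4 : Nat.card ↥(Subgroup.upperCentralSeries T 4) = 16)
    (φ : MulAut T) (m : ℕ) (hm : Odd m) (hφ : φ ^ m = 1) :
    ∀ x ∈ Subgroup.upperCentralSeries T 4, φ x = x := by
  have s0 : ∀ x ∈ Subgroup.upperCentralSeries T 0, φ x = x := by
    intro x hx
    rw [Subgroup.upperCentralSeries_zero, Subgroup.mem_bot] at hx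
    rw [hx, map_one]
  have c0 : Nat.card ↥(Subgroup.upperCentralSeries T 0) = 1 := by
    rw [Subgroup.upperCentralSeries_zero]; simp
  have s1 := odd1_step hT φ m hm hφ _ _ (Subgroup.upperCentralSeries_mono T (show 0 ≤ 1 by norm_num))
    (by rw [h1, c0]) s0
  have s2 := odd1_step hT φ m hm hφ _ _ (Subgroup.upperCentralSeries_mono T (show 1 ≤ 2 by norm_num))
    (by rw [h1, h2]) s1
  have s3 := odd1_step hT φ m hm hφ _ _ (Subgroup.upperCentralSeries_mono T (show 2 ≤ 3 by norm_num))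
    (by rw [h2, h3]) s2
  exact odd1_step hT φ m hm hφ _ _ (Subgroup.upperCentralSeries_mono T (show 3 ≤ 4 by norm_num))
    (by rw [h3, h4]) s3

end Cfsg.Agent.Lib.Helper27.T14
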