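import Cfsg.Agent.Lib.Helper27.T14.ODD4
import Cfsg.Agent.Lib.Helper27.T14.HALF
import Cfsg.Agent.Lib.Helper3.PGroup

namespace Cfsg.Agent.Lib.Helper27.T14
open Subgroup
open scoped commutatorElement

theorem ODD3 {T : Type*} [Group T] [Finite T] (hT : IsPGroup 2 T) (W : Subgroup T)
    (hW : W = Subgroup.centralizer ((Subgroup.upperCentralSeries T 3 : Subgroup T) : Set T))
    (hF : sq W = Subgroup.upperCentralSeries T 3)
    (φ : MulAut T) (m : ℕ) (hm : Odd m) (hφ : φ ^ m = 1)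
    (h4 : ∀ x ∈ Subgroup.upperCentralSeries T 4, φ x = x) :
    ∀ w ∈ W, w⁻¹ * φ w ∈ sq W := by
  haveI : Fact (Nat.Prime 2) := ⟨Nat.prime_two⟩
  rw [hF]
  set F := Subgroup.upperCentralSeries T 3 with hFd
  have h34 : F ≤ Subgroup.upperCentralSeries T 4 :=
    Subgroup.upperCentralSeries_mono T (by norm_num)
  have hnW : W.Normal := by rw [hW]; infer_instance
  have hsq : ∀ x ∈ W, x ^ 2 ∈ F := fun x hx => hF ▸ sq_mem_sq hx
  have hTW : ∀ t : T, t⁻¹ * φ t ∈ W := by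
    intro t
    rw [hW, Subgroup.mem_centralizer_iff]
    intro y hy
    have hy' : t * y * t⁻¹ ∈ F := (inferInstance : F.Normal).conj_mem y hy t
    have e1 : φ (t * y * t⁻¹) = t * y * t⁻¹ := h4 _ (h34 hy')
    have e2 : φ y = y := h4 _ (h34 hy)
    rw [map_mul, map_mul, map_inv, e2] at e1
    calc y * (t⁻¹ * φ t) = t⁻¹ * (t * y * t⁻¹) * φ t := by group
      _ = t⁻¹ * (φ t * y * (φ t)⁻¹) * φ t := by rw [e1]
      _ = t⁻¹ * φ t * y := by group
  have hφW : ∀ w ∈ W, φ w ∈ W := by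
    intro w hw
    have := W.mul_mem hw (hTW w)
    simpa using this
  have comm : ∀ x ∈ W, ∀ y ∈ W, (x : T ⧸ F) * (y : T ⧸ F) = (y : T ⧸ F) * (x : T ⧸ F) := by
    intro x hx y hy
    rw [← half_comm_iff, commutatorElement_def]
    exact hpl_comm W F hsq x y hx hy
  let ψ : ↥W →* T ⧸ F := MonoidHom.mk' (fun w => (((w : T)⁻¹ * φ (w : T) : T) : T ⧸ F)) (by
    intro w w'
    have c1 := comm ((w' : T)⁻¹) (W.inv_mem w'.2) ((w : T)⁻¹ * φ (w : T)) (hTW _)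
    simp only [Subgroup.coe_mul, map_mul, QuotientGroup.mk_mul, QuotientGroup.mk_inv, mul_inv_rev]
      at c1 ⊢
    calc _ = (((w' : T) : T ⧸ F)⁻¹ * (((w : T) : T ⧸ F)⁻¹ * ((φ (w : T) : T) : T ⧸ F))) *
            ((φ (w' : T) : T) : T ⧸ F) := by group
      _ = ((((w : T) : T ⧸ F)⁻¹ * ((φ (w : T) : T) : T ⧸ F)) * ((w' : T) : T ⧸ F)⁻¹) *
            ((φ (w' : T) : T) : T ⧸ F) := by rw [c1]
      _ = _ := by group)
  have ψa : ∀ w : ↥W, ψ w = (((w : T)⁻¹ * φ (w : T) : T) : T ⧸ F) := fun _ => rfl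
  have hnorm : (ψ.range).Normal := by
    constructor
    rintro _ ⟨w, rfl⟩ q
    obtain ⟨t, rfl⟩ := QuotientGroup.mk_surjective q
    refine ⟨⟨t * w * t⁻¹, hnW.conj_mem _ w.2 t⟩, ?_⟩
    rw [ψa, ψa]
    simp only [map_mul, map_inv]
    -- φ t = t * x
    set x := t⁻¹ * φ t with hx
    have hxW : x ∈ W := hTW t
    have e : φ t = t * x := by rw [hx]; group
    have c1 := comm x hxW (φ (w : T)) (hφW _ w.2)
    rw [e]
    simp only [QuotientGroup.mk_mul, QuotientGroup.mk_inv, mul_inv_rev, inv_inv]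
    calc _ = (t : T ⧸ F) * ((w : T) : T ⧸ F)⁻¹ * ((x : T ⧸ F) * ((φ (w : T) : T) : T ⧸ F)) *
            (x : T ⧸ F)⁻¹ * (t : T ⧸ F)⁻¹ := by group
      _ = (t : T ⧸ F) * ((w : T) : T ⧸ F)⁻¹ * (((φ (w : T) : T) : T ⧸ F) * (x : T ⧸ F)) *
            (x : T ⧸ F)⁻¹ * (t : T ⧸ F)⁻¹ := by rw [c1]
      _ = _ := by group
  have hbot : ψ.range = ⊥ := by
    by_contra hne
    have h1 := Cfsg.Agent.Lib.Helper3.normal_inf_center_ne_bot' (hT.to_quotient F) ψ.range hne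
    obtain ⟨⟨r, hr⟩, hr1⟩ := (Subgroup.ne_bot_iff_exists_ne_one).1 h1
    obtain ⟨⟨w, rfl⟩, hc⟩ := hr
    apply hr1
    rw [Subtype.ext_iff]
    show ψ w = 1
    rw [ψa]
    have hl4 : (w : T)⁻¹ * φ (w : T) ∈ Subgroup.upperCentralSeries T 4 := by
      rw [Subgroup.mem_upperCentralSeries_succ_iff]
      intro y
      rw [half_comm_iff]
      have hc' : ψ w ∈ Subgroup.center (T ⧸ F) := hc
      rw [Subgroup.mem_center_iff] at hc'
      exact (hc' (y : T ⧸ F)).symm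
    have := ODD4 hT φ m hm hφ _ h4 (w : T) hl4
    rw [this]
    simp
  intro w hw
  have : ψ ⟨w, hw⟩ ∈ ψ.range := ⟨_, rfl⟩
  rw [hbot, Subgroup.mem_bot, ψa] at this
  exact (QuotientGroup.eq_one_iff _).1 this

end Cfsg.Agent.Lib.Helper27.T14
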