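import Cfsg.Agent.Lib.Helper27.T14.ORD
import Cfsg.Agent.Lib.Helper27.T14.ODD1
import Cfsg.Agent.Lib.Helper27.T14.ODD3

namespace Cfsg.Agent.Lib.Helper27.T14
open Subgroup
open scoped commutatorElement

/-- ODD : assembly (helper27) -/
theorem ODD {T : Type*} [Group T] [Finite T] {W : Subgroup T} (h : Hyp T W) (φ : MulAut T)
    (hφ : Odd (orderOf φ)) : φ = 1 := by
  obtain ⟨h1, h2, h3⟩ := UCS h.two h.big h.z4
  obtain ⟨-, hF, -, -⟩ := ORD h
  have hp : φ ^ orderOf φ = 1 := pow_orderOf_eq_one φ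
  have h4 := ODD1 h.two h1 h2 h3 h.z4 φ _ hφ hp
  have h34 : Subgroup.upperCentralSeries T 3 ≤ Subgroup.upperCentralSeries T 4 :=
    Subgroup.upperCentralSeries_mono T (by norm_num)
  have hWfix : ∀ w ∈ W, φ w = w := by
    intro w hw
    refine ODD4 h.two φ _ hφ hp (sq W) ?_ w (ODD3 h.two W h.hW hF φ _ hφ hp h4 w hw)
    intro n hn
    exact h4 n (h34 (hF ▸ hn))
  ext t
  refine ODD4 h.two φ _ hφ hp W hWfix t ?_
  rw [h.hW, Subgroup.mem_centralizer_iff]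
  intro y hy
  have hy' : t * y * t⁻¹ ∈ Subgroup.upperCentralSeries T 3 :=
    (inferInstance : (Subgroup.upperCentralSeries T 3).Normal).conj_mem y hy t
  have e1 : φ (t * y * t⁻¹) = t * y * t⁻¹ := h4 _ (h34 hy')
  have e2 : φ y = y := h4 _ (h34 hy)
  rw [map_mul, map_mul, map_inv, e2] at e1
  -- φ t * y * (φ t)⁻¹ = t * y * t⁻¹
  calc y * (t⁻¹ * φ t) = t⁻¹ * (t * y * t⁻¹) * φ t := by group
    _ = t⁻¹ * (φ t * y * (φ t)⁻¹) * φ t := by rw [e1]
    _ = t⁻¹ * φ t * y := by group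

end Cfsg.Agent.Lib.Helper27.T14
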