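import Cfsg.Agent.Lib.Helper27.T14.Defs

namespace Cfsg.Agent.Lib.Helper27.T14
open Subgroup

theorem ODD4 {T : Type*} [Group T] [Finite T] (hT : IsPGroup 2 T) (φ : MulAut T) (m : ℕ)
    (hm : Odd m) (hφ : φ ^ m = 1) (N : Subgroup T) (hN : ∀ n ∈ N, φ n = n) (t : T)
    (ht : t⁻¹ * φ t ∈ N) : φ t = t := by
  set n := t⁻¹ * φ t with hn
  have h1 : φ t = t * n := by rw [hn]; group
  have h2 : ∀ j : ℕ, (φ ^ j) t = t * n ^ j := by
    intro j
    induction j with
    | zero => simp
    | succ j ih =>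
      rw [pow_succ', MulAut.mul_apply, ih, map_mul, map_pow, hN n ht, h1, pow_succ']
      group
  have h3 : n ^ m = 1 := by
    have := h2 m
    rw [hφ, MulAut.one_apply] at this
    exact (mul_eq_left.mp this.symm)
  obtain ⟨k, hk⟩ := hT n
  have h4 : n = 1 := by
    have hc : Nat.Coprime m (2 ^ k) := by
      apply Nat.Coprime.pow_right
      exact (Nat.coprime_two_right).2 hm
    have := orderOf_dvd_of_pow_eq_one h3
    have h5 := orderOf_dvd_of_pow_eq_one hk
    have h6 : orderOf n ∣ 1 := by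
      rw [← hc.gcd_eq_one]
      exact Nat.dvd_gcd this h5
    exact orderOf_eq_one_iff.1 (Nat.dvd_one.1 h6)
  rw [h1, h4, mul_one]

end Cfsg.Agent.Lib.Helper27.T14
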