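import Cfsg.Agent.Lib.Helper27.T14.HPL

namespace Cfsg.Agent.Lib.Helper27.T14
open Subgroup

theorem SQE {G : Type*} [Group G] [Finite G] (W I : Subgroup G)
    (hd : ∀ U : Subgroup G, U ≤ W → U.relIndex W ≤ 16 → sq W ≤ U) (hI : I ≤ W)
    (hidx : I.relIndex W ≤ 8) : sq I = sq W := by
  refine le_antisymm (sq_mono hI) ?_
  intro y hy
  by_contra hyI
  have hWI : sq W ≤ I := hd I hI (hidx.trans (by norm_num))
  obtain ⟨U, hNU, hUI, hyU, hU2⟩ := HPL I (sq I) (sq_le I) (fun x hx => sq_mem_sq hx) y (hWI hy) hyI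
  have h1 : U.relIndex W = U.relIndex I * I.relIndex W :=
    (Subgroup.relIndex_mul_relIndex U I W hUI hI).symm
  have h2 : U.relIndex W ≤ 16 := by
    rw [h1, hU2]; omega
  exact hyU (hd U (hUI.trans hI) h2 hy)

end Cfsg.Agent.Lib.Helper27.T14
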