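import Cfsg.Agent.Lib.Helper27.T14.SQE
import Cfsg.Agent.Lib.Helper27.T14.Basic

namespace Cfsg.Agent.Lib.Helper27.T14
open Subgroup

theorem sq_map {G G' : Type*} [Group G] [Group G'] (f : G →* G') (W : Subgroup G) :
    sq (W.map f) = (sq W).map f := by
  unfold sq
  rw [MonoidHom.map_closure]
  congr 1
  ext y
  constructor
  · rintro ⟨_, ⟨x, hx, rfl⟩, rfl⟩
    exact ⟨x ^ 2, ⟨x, hx, rfl⟩, by simp⟩
  · rintro ⟨_, ⟨x, hx, rfl⟩, rfl⟩
    exact ⟨f x, ⟨x, hx, rfl⟩, by simp⟩

theorem WC {G : Type*} [Group G] [Finite G] (S W : Subgroup G) (hWS : W ≤ S)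
    (hidx : W.relIndex S ≤ 8)
    (hd : ∀ U : Subgroup G, U ≤ W → U.relIndex W ≤ 16 → sq W ≤ U)
    (hcent : ∀ s ∈ S, (∀ z ∈ sq W, s * z = z * s) ↔ s ∈ W)
    (g : G) (hg : W.map (MulAut.conj g).toMonoidHom ≤ S) :
    W.map (MulAut.conj g).toMonoidHom = W := by
  set c := (MulAut.conj g).toMonoidHom with hc
  have cinj : Function.Injective c := (MulAut.conj g).injective
  have csurj : Function.Surjective c := (MulAut.conj g).surjective
  set W1 := W.map c with hW1
  set I := W ⊓ W1 with hI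
  have hcard : Nat.card W1 = Nat.card W := Subgroup.card_map_of_injective cinj
  have r1 : I.relIndex W1 ≤ 8 := by
    rw [hI, Subgroup.inf_relIndex_right]
    refine (Subgroup.relIndex_le_of_le_right hg ?_).trans hidx
    intro h0
    have := card_mul_relIndex' hWS
    rw [h0, mul_zero] at this
    exact absurd this.symm (Nat.card_pos).ne'
  have r2 : I.relIndex W = I.relIndex W1 := by
    have e1 := card_mul_relIndex' (inf_le_left : I ≤ W)
    have e2 := card_mul_relIndex' (inf_le_right : I ≤ W1)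
    rw [hcard, ← e1] at e2
    exact (Nat.eq_of_mul_eq_mul_left Nat.card_pos e2).symm
  have s1 : sq I = sq W := SQE W I hd inf_le_left (r2 ▸ r1)
  have s2 : sq (I.comap c) = sq W := by
    refine SQE W (I.comap c) hd ?_ ?_
    · intro x hx
      have : c x ∈ W1 := (Subgroup.mem_comap.1 hx).2
      obtain ⟨y, hy, hyx⟩ := this
      rwa [← cinj hyx]
    · rw [Subgroup.relIndex_comap]
      exact r1
  have s3 : sq I = sq W1 := by
    rw [hW1, sq_map, ← s2, ← sq_map, Subgroup.map_comap_eq_self_of_surjective csurj]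
  have hle : W1 ≤ W := by
    intro s hs
    refine (hcent s (hg hs)).1 ?_
    intro z hz
    rw [← s1, s3, hW1, sq_map] at hz
    obtain ⟨z0, hz0, rfl⟩ := hz
    obtain ⟨w0, hw0, rfl⟩ := hs
    rw [← map_mul, ← map_mul, (hcent w0 (hWS hw0)).2 hw0 z0 hz0]
  exact Subgroup.eq_of_le_of_card_ge hle hcard.ge

end Cfsg.Agent.Lib.Helper27.T14
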