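import Cfsg.Agent.Lib.Helper27.T14.Defs2
import Cfsg.Agent.Lib.Helper27.T14.CHN
import Cfsg.Agent.Lib.Helper27.T14.CNT
import Cfsg.Agent.Lib.Helper27.T14.FIN5
import Cfsg.Agent.Lib.Helper27.T14.EXE

namespace Cfsg.Agent.Lib.Helper27.T14
open Subgroup
open scoped commutatorElement

/-- ZW : the centre of `W` is `Z3`. -/
theorem ZW {T : Type*} [Group T] [Finite T] {W Z2 Z3 Z4 : Subgroup T} (c : Ctx T W Z2 Z3 Z4)
    (x : T) (hx : x ∈ W) (hxc : ∀ w ∈ W, x * w = w * x) : x ∈ Z3 := by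
  by_contra hx3
  obtain ⟨e, heW, he4, he3, hec⟩ := EXE c x hx hxc hx3
  obtain ⟨z, s, H1, H2, h01, h12, i1, i2, i3, hz, hz', hs, hs', hH2⟩ := CHN c
  obtain ⟨⟨v1, hv1, hev⟩, K, hK3, hKW, hKc, hKz, hKf⟩ :=
    CNT c z s H1 H2 h01 h12 i1 i2 i3 hz hz' hs hs' e heW he4
  exact FIN5 c z s v1 e (hH2 z (h12 hz)) (hH2 s hs) hv1 he3 hec hev K hK3 hKW hKc hKz hKf

end Cfsg.Agent.Lib.Helper27.T14
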